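import Cfsg.Agent.N2.Tri.Grp
import Cfsg.Agent.OrdDiv.Main
import Cfsg.Agent.S0242
import Cfsg.Agent.S0278

/-!
# N2 (S3519): matrix groups over explicit fields for the engine (helper6)
-/

set_option autoImplicit false
set_option linter.unusedSectionVars false

namespace Cfsg.Agent.N2.Tg.Eng

open Cfsg Subgroup Matrix

/-- packing of digits -/
noncomputable def pk (B : ℕ) (l : List ℕ) : ℕ := List.rec 0 (fun a _ r => Nat.add a (Nat.mul B r)) l

/-- linear combinations -/
def lin {W : Type} [AddCommGroup W] (l : List ℕ) (bl : List W) : W := (List.zipWith (· • ·) l bl).sum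

section

variable {W : Type} [AddCommGroup W] {p B : ℕ}

theorem pk_ok (hB : p ≤ B) : ∀ (l : List ℕ) (bl : List W), l.length = bl.length → (∀ a ∈ l, a < p) →
    Rd p B bl.length (pk B l) ∧ dec B bl (pk B l) = lin l bl
  | [], [], _, _ => ⟨rfl, rfl⟩
  | a :: l, b :: bl, h, k => by
    have h0 := k a List.mem_cons_self
    obtain ⟨h1, h2⟩ := dm (h0.trans_le hB) (pk B l)
    obtain ⟨h3, h4⟩ := pk_ok hB l bl (Nat.succ.inj h) fun x hx => k x (List.mem_cons_of_mem _ hx)
    refine ⟨⟨h1.symm ▸ h0, h2.symm ▸ h3⟩, ?_⟩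
    show ((a + B * pk B l) % B) • b + dec B bl ((a + B * pk B l) / B) = a • b + lin l bl
    rw [h1, h2, h4]

theorem lin_append {l l' : List ℕ} {b b' : List W} (h : l.length = b.length) :
    lin (l ++ l') (b ++ b') = lin l b + lin l' b' := by
  rw [lin, List.zipWith_append h, List.sum_append, lin, lin]

theorem lin_map {V : Type} [AddCommGroup V] (φ : W →+ V) : ∀ (l : List ℕ) (b : List W), lin l (b.map φ) = φ (lin l b)
  | [], _ => (map_zero φ).symm
  | _ :: _, [] => (map_zero φ).symm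
  | a :: l, c :: b => by
    show a • φ c + lin l (b.map φ) = φ (a • c + lin l b)
    rw [lin_map φ l b, map_add, map_nsmul]

end

/-- an explicit field with `p ^ g` elements, base `rb`, coordinates `co` -/
structure Rg (R : Type) [CommRing R] [Fintype R] (p g : ℕ) (rb : List R) (co : R → List ℕ) : Prop where
  two : 2 ≤ p
  chr : (p : R) = 0
  len : rb.length = g
  ok : ∀ r, (co r).length = g ∧ (∀ a ∈ co r, a < p) ∧ lin (co r) rb = r
  card : Fintype.card R = p ^ g
  ne : (1 : R) ≠ 0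
  dom : ∀ a b : R, a * b = 0 → a = 0 ∨ b = 0

variable {R : Type} [CommRing R] [Fintype R] {p g B n : ℕ} {rb : List R} {co : R → List ℕ}
  {ι : Type} [Fintype ι] [DecidableEq ι] {F : Type} [Field F] [Fintype F]

theorem Rg.equiv (h : Rg R p g rb co) (hF : Fintype.card F = p ^ g) : Nonempty (R ≃+* F) := by
  have : Nontrivial R := ⟨1, 0, h.ne⟩
  have : NoZeroDivisors R := ⟨h.dom _ _⟩
  have : IsDomain R := NoZeroDivisors.to_isDomain R
  let _ := (Finite.isField_of_domain R).toField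
  exact ⟨FiniteField.ringEquivOfCardEq (h.card.trans hF.symm)⟩

/-- pairs -/
def prs (il : List ι) (rb : List R) : List (ι × R) := il.flatMap fun i => rb.map (Prod.mk i)

/-- the base -/
def bas (il : List ι) (rb : List R) : List (ι → R) := (prs il rb).map fun x => Pi.single x.1 x.2

/-- the code of a vector -/
noncomputable def enc (B : ℕ) (il : List ι) (co : R → List ℕ) (u : ι → R) : ℕ := pk B (il.flatMap fun i => co (u i))

/-- the code of a matrix -/
noncomputable def cod (B : ℕ) (il : List ι) (rb : List R) (co : R → List ℕ) (A : Matrix ι ι R) : List ℕ :=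
  (prs il rb).map fun x => enc B il co fun k => A k x.1 * x.2

theorem Rg.lin (h : Rg R p g rb co) (u : ι → R) : ∀ il : List ι,
    (il.flatMap fun i => co (u i)).length = il.length * g ∧ (bas il rb).length = il.length * g ∧
      lin (il.flatMap fun i => co (u i)) (bas il rb) = (il.map fun i => Pi.single i (u i)).sum
  | [] => ⟨(Nat.zero_mul _).symm, (Nat.zero_mul _).symm, rfl⟩
  | i :: il => by
    obtain ⟨h1, h2, h3⟩ := h.lin u il
    have h4 : bas (i :: il) rb = rb.map (AddMonoidHom.single (fun _ => R) i) ++ bas il rb := by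
      rw [bas, prs, List.flatMap_cons, List.map_append, List.map_map]
      rfl
    rw [h4, List.flatMap_cons, List.length_append, List.length_append, h1, h2, List.length_map, h.len, (h.ok _).1,
      lin_append (by rw [List.length_map, h.len, (h.ok _).1]), lin_map, h3, (h.ok _).2.2, List.length_cons]
    exact ⟨by ring, by ring, rfl⟩

/-- the list of indices and the sizes -/
structure Il (p g B n : ℕ) (il : List ι) : Prop where
  nd : il.Nodup
  all : ∀ i, i ∈ il
  len : il.length * g = n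
  le : p ≤ B
  big : n * ((p - 1) * (p - 1)) < B

variable {il : List ι}

theorem Rg.enc (h : Rg R p g rb co) (I : Il p g B n il) (u : ι → R) :
    Rd p B n (enc B il co u) ∧ dec B (bas il rb) (enc B il co u) = u := by
  obtain ⟨h1, h2, h3⟩ := h.lin u il
  obtain ⟨h4, h5⟩ := pk_ok I.le _ (bas il rb) (h1.trans h2.symm) fun a ha => by
    obtain ⟨i, -, k⟩ := List.mem_flatMap.1 ha
    exact (h.ok _).2.1 a k
  rw [h2, I.len] at h4
  refine ⟨h4, h5.trans (h3.trans ?_)⟩
  rw [← List.sum_toFinset _ I.nd, Finset.eq_univ_iff_forall.2 fun i => List.mem_toFinset.2 (I.all i)]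
  exact Finset.univ_sum_single u

theorem Rg.fr (h : Rg R p g rb co) (I : Il p g B n il) : Fr p B n (bas il rb) where
  two := h.two
  le := I.le
  big := I.big
  len := (h.lin 0 il).2.1.trans I.len
  chr := fun w => funext fun i => by rw [Pi.smul_apply, nsmul_eq_mul, h.chr, zero_mul, Pi.zero_apply]
  sur := fun u => ⟨_, h.enc I u⟩
  card := by
    rw [Nat.card_eq_fintype_card, Fintype.card_fun, h.card, ← pow_mul, ← I.len, ← List.toFinset_card_of_nodup I.nd,
      Finset.eq_univ_iff_forall.2 fun i => List.mem_toFinset.2 (I.all i), mul_comm, Finset.card_univ]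

/-- the action of matrices -/
def r0 : Matrix ι ι R →* AddMonoid.End (ι → R) where
  toFun A := AddMonoidHom.mk' (A *ᵥ ·) A.mulVec_add
  map_one' := AddMonoidHom.ext fun u => one_mulVec u
  map_mul' A C := AddMonoidHom.ext fun u => (mulVec_mulVec u A C).symm

theorem Rg.rep (h : Rg R p g rb co) (I : Il p g B n il) (A : Matrix ι ι R) :
    Rep p B n (bas il rb) (cod B il rb co A) (r0 A) := by
  rw [Rep, cod]
  refine List.forall₂_map_left_iff.2 (List.forall₂_map_right_iff.2 (List.forall₂_same.2 fun x _ => ⟨(h.enc I _).1, ?_⟩))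
  rw [(h.enc I _).2]
  exact funext fun k => (congrFun (mulVec_single A x.1 x.2) k).symm

/-- the action of matrices over `F` -/
def rF (e : R ≃+* F) : Matrix ι ι F →* AddMonoid.End (ι → R) :=
  r0.comp (e.symm.mapMatrix : Matrix ι ι F ≃+* Matrix ι ι R).toMonoidHom

theorem rF_inj (e : R ≃+* F) : Function.Injective (rF (ι := ι) e) := fun _ _ h =>
  (e.symm.mapMatrix : Matrix ι ι F ≃+* Matrix ι ι R).injective (mulVec_injective (funext (DFunLike.congr_fun h)))

theorem rF_map (e : R ≃+* F) (A : Matrix ι ι R) : rF e (A.map e) = r0 A :=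
  congrArg r0 (Matrix.ext fun _ _ => e.symm_apply_apply _)

variable {G N : Type} [Group G] [Group N]

/-- the projection -/
def prj (e : N ≃* G ⧸ center G) : G →* N := e.symm.toMonoidHom.comp (QuotientGroup.mk' _)

theorem prj_sur (e : N ≃* G ⧸ center G) : Function.Surjective (prj e) :=
  e.symm.surjective.comp (QuotientGroup.mk'_surjective _)

theorem prj_ker (e : N ≃* G ⧸ center G) (a : G) : prj e a = 1 ↔ a ∈ center G :=
  e.symm.map_eq_one_iff.trans (QuotientGroup.eq_one_iff a)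

theorem Rg.cov (h : Rg R p g rb co) (I : Il p g B n il) (e : R ≃+* F) (t : G →* Matrix ι ι F) (ht : Function.Injective t)
    (ε : N ≃* G ⧸ center G) (As : List (Matrix ι ι R)) (hA : ∀ A ∈ As, ∃ a, t a = A.map e) :
    Cov p B n (bas il rb) ((rF e).comp t) (prj ε) (As.map (cod B il rb co)) :=
  ⟨h.fr I, (rF_inj e).comp ht, prj_sur ε, prj_ker ε, fun P hP => by
    obtain ⟨A, h1, rfl⟩ := List.mem_map.1 hP
    obtain ⟨a, ha⟩ := hA A h1
    exact ⟨a, mem_top a, by rw [MonoidHom.comp_apply, ha, rF_map]; exact h.rep I A⟩⟩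

/-- matrices from tables -/
def mat (p : ℕ) (rb : List R) (ix : ι → ℕ) (t : List (List ℕ)) : Matrix ι ι R :=
  Matrix.of fun i j => dec p rb ((t.getD (ix i) []).getD (ix j) 0)

/-- a cover of order `o` -/
def Has (p B n : ℕ) (N : Type) [Group N] (o : ℕ) (gs : List (List ℕ)) : Prop :=
  ∃ (W : Type) (_ : AddCommGroup W) (bl : List W) (G : Type) (_ : Group G) (ρ : G →* AddMonoid.End W) (f : G →* N),
    Cov p B n bl ρ f gs ∧ Nat.card G = o

section has

variable {o : ℕ} {gs : List (List ℕ)}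

theorem Has.ext (H : Has p B n N o gs) (ws gs' : List (List ℕ))
    (h : frcM gs (fun gs => ws.map (ev p B n gs) == gs') = true) : Has p B n N o gs' :=
  let ⟨W, i, bl, G, j, ρ, f, C, k⟩ := H
  ⟨W, i, bl, G, j, ρ, f, C.ext ws h, k⟩

theorem Has.tri {X Y : List ℕ} (H : Has p B n N o (X :: Y :: gs)) (L : List (ℕ × ℕ × ℕ × List (List ℕ))) {a b c : ℕ}
    (hc : c.Prime) (h : chkT p B n X Y L o a b c = true) : Tri N a b c :=
  let ⟨_, _, _, _, _, _, _, C, k⟩ := H
  C.tri L k hc h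

theorem Has.any {X Y : List ℕ} (H : Has p B n N o (X :: Y :: gs)) (L : List (ℕ × ℕ × ℕ × List (List ℕ))) {a b : ℕ}
    (h : chkT p B n X Y L o a b 0 = true) : ∃ c, Tri N a b c :=
  let ⟨_, _, _, _, _, _, _, C, k⟩ := H
  C.any L k h

theorem Has.cj (H : Has p B n N o gs) (u v : List ℕ) {r j : ℕ} (hr : r.Prime) (h : chkJ p B n gs u v r j = true) :
    Cj N r j :=
  let ⟨_, _, _, _, _, _, _, C, _⟩ := H
  C.cj u v hr h

theorem Has.sc (H : Has p B n N o gs) (u v a a' b b' : List ℕ) (m t : ℕ) {r j o' : ℕ} (hr : r.Prime)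
    (ho : Nat.card N = o') (h2 : ¬ r ^ 2 ∣ o) (ht : 0 < t) (h : chkJ p B n gs u v r j = true)
    (hS : chkS p B n gs u a a' b b' m t = true) (hb : scB o' r j (o' / t) = true) : Cj N r j ∧ SC N r :=
  let ⟨_, _, _, _, _, _, _, C, k⟩ := H
  C.sc u v a a' b b' m t hr k ho h2 ht h hS hb

end has

/-! ### the classical families -/

/-- **linear groups** -/
theorem has_L {m o : ℕ} {il : List (Fin m)} (h : Rg R p g rb co) (I : Il p g B n il) (hN : OrdDiv.Real (.psl m (p ^ g)) N)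
    (hm : 1 ≤ m) (ho : (p ^ g - 1) * o = ∏ i : Fin m, ((p ^ g) ^ m - (p ^ g) ^ (i : ℕ))) (h0 : 0 < p ^ g - 1)
    (As : List (Matrix (Fin m) (Fin m) R)) (hA : ∀ A ∈ As, A.det = 1) : Has p B n N o (As.map (cod B il rb co)) := by
  obtain ⟨F, _, _, hF, ⟨ε⟩⟩ := hN
  obtain ⟨e⟩ := h.equiv hF
  exact ⟨_, _, _, _, _, _, _, h.cov I e SpecialLinearGroup.coeMonoidHom Subtype.val_injective ε As fun A k =>
    ⟨⟨A.map e, by rw [← RingHom.coe_coe, ← RingHom.mapMatrix_apply, ← RingHom.map_det, hA A k, map_one]⟩, rfl⟩,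
    Nat.eq_of_mul_eq_mul_left h0 ((S0242.result hF m hm).trans ho.symm)⟩

/-- **symplectic groups** -/
theorem has_S {m o : ℕ} {il : List (Fin m ⊕ Fin m)} (h : Rg R p g rb co) (I : Il p g B n il)
    (hN : OrdDiv.Real (.psp m (p ^ g)) N)
    (ho : (p ^ g) ^ (m ^ 2) * ∏ i ∈ Finset.range m, ((p ^ g) ^ (2 * (i + 1)) - 1) = o)
    (As : List (Matrix (Fin m ⊕ Fin m) (Fin m ⊕ Fin m) R)) (hA : ∀ A ∈ As, A * J (Fin m) R * Aᵀ = J (Fin m) R) :
    Has p B n N o (As.map (cod B il rb co)) := by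
  obtain ⟨F, _, _, hF, ⟨ε⟩⟩ := hN
  obtain ⟨e⟩ := h.equiv hF
  exact ⟨_, _, _, _, _, _, _, h.cov I e (symplecticGroup (Fin m) F).subtype Subtype.val_injective ε As fun A k =>
    ⟨⟨A.map e, SymplecticGroup.map_mem (SymplecticGroup.mem_iff.2 (hA A k)) (e : R →+* F)⟩, rfl⟩,
    (S0245.result hF m).trans ho⟩

/-- **unitary groups** -/
theorem has_U {m o s : ℕ} {il : List (Fin m)} (h : Rg R p g rb co) (I : Il p g B n il) (hp : p.Prime)
    (hN : OrdDiv.Real (.psu m (p ^ s)) N) (hs : (p ^ s) ^ 2 = p ^ g) (hm : 1 ≤ m)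
    (ho : (p ^ s + 1) * o = (p ^ s) ^ (m * (m - 1) / 2) *
      ∏ i ∈ Finset.range m, (if Even i then (p ^ s) ^ (i + 1) + 1 else (p ^ s) ^ (i + 1) - 1))
    (As : List (Matrix (Fin m) (Fin m) R)) (hA : ∀ A ∈ As, A.det = 1 ∧ Aᵀ * A.map (· ^ p ^ s) = 1) :
    Has p B n N o (As.map (cod B il rb co)) := by
  obtain ⟨F, _, _, hF, ⟨ε⟩⟩ := hN
  obtain ⟨e⟩ := h.equiv (hF.trans hs)
  have : Fact p.Prime := ⟨hp⟩
  have : CharP F p := (CharP.charP_iff_prime_eq_zero hp).2 (by rw [← map_natCast e, h.chr, map_zero])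
  refine ⟨_, _, _, _, _, _, _, h.cov I e (SpecialLinearGroup.coeMonoidHom.comp (SU m F (p ^ s)).subtype)
    (Subtype.val_injective.comp Subtype.val_injective) ε As fun A k =>
    ⟨⟨⟨A.map e, by rw [← RingHom.coe_coe, ← RingHom.mapMatrix_apply, ← RingHom.map_det, (hA A k).1, map_one]⟩,
      fun u v => ?_⟩, rfl⟩, Nat.eq_of_mul_eq_mul_left (Nat.succ_pos _) ((S0278.result hF m hm).trans ho.symm)⟩
  have h1 : (A.map e)ᵀ * (A.map e).map (iterateFrobenius F p s) = 1 := by
    have h2 := congrArg (fun M : Matrix (Fin m) (Fin m) R => M.map (e : R →+* F)) (hA A k).2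
    simp only [Matrix.map_mul, Matrix.map_one _ (map_zero _) (map_one _)] at h2
    rw [show (A.map e).map (iterateFrobenius F p s) = (A.map (· ^ p ^ s)).map (e : R →+* F) from
      Matrix.ext fun i j => (map_pow e _ _).symm]
    exact h2
  show (A.map e *ᵥ u) ⬝ᵥ (iterateFrobenius F p s ∘ (A.map e *ᵥ v)) = u ⬝ᵥ (iterateFrobenius F p s ∘ v)
  rw [show iterateFrobenius F p s ∘ (A.map e *ᵥ v) = (A.map e).map (iterateFrobenius F p s) *ᵥ (iterateFrobenius F p s ∘ v) from
    funext (RingHom.map_mulVec _ _ _), ← vecMul_transpose, ← dotProduct_mulVec, mulVec_mulVec, h1, one_mulVec]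

theorem two_mem {α : Type} {P : α → Prop} {a b : α} (h : P a ∧ P b) : ∀ x ∈ [a, b], P x :=
  List.forall_mem_cons.2 ⟨h.1, List.forall_mem_singleton.2 h.2⟩

/-! ### the fields -/

theorem rg_prime (p : ℕ) [NeZero p] (hp : p.Prime) : Rg (ZMod p) p 1 [1] fun r => [r.val] :=
  have : Fact p.Prime := ⟨hp⟩
  { two := hp.two_le
    chr := ZMod.natCast_self p
    len := rfl
    ok := fun r => ⟨rfl, fun a ha => List.mem_singleton.1 ha ▸ r.val_lt, by simp [lin]⟩
    card := by rw [ZMod.card, pow_one]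
    ne := one_ne_zero
    dom := fun _ _ => mul_eq_zero.1 }

instance ftQ {a b : R} : Fintype (QuadraticAlgebra R a b) := Fintype.ofEquiv _ (QuadraticAlgebra.equivProd a b).symm

/-- `ω ^ 3 = ω + 1` -/
@[ext] structure C3 (R : Type) where
  /-- coordinate -/
  a : R
  /-- coordinate -/
  b : R
  /-- coordinate -/
  c : R
  deriving DecidableEq

instance C3.ft : Fintype (C3 R) :=
  Fintype.ofEquiv (R × R × R) ⟨fun x => ⟨x.1, x.2.1, x.2.2⟩, fun x => (x.a, x.b, x.c), fun _ => rfl, fun _ => rfl⟩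

instance C3.iZ : Zero (C3 R) := ⟨⟨0, 0, 0⟩⟩
instance C3.iA : Add (C3 R) := ⟨fun x y => ⟨x.a + y.a, x.b + y.b, x.c + y.c⟩⟩
instance C3.iN : Neg (C3 R) := ⟨fun x => ⟨-x.a, -x.b, -x.c⟩⟩
instance C3.iO : One (C3 R) := ⟨⟨1, 0, 0⟩⟩
instance C3.iM : Mul (C3 R) := ⟨fun x y => ⟨x.a * y.a + (x.b * y.c + x.c * y.b),
  x.a * y.b + x.b * y.a + (x.b * y.c + x.c * y.b) + x.c * y.c, x.a * y.c + x.b * y.b + x.c * y.a + x.c * y.c⟩⟩

theorem C3.add_eq (x y : C3 R) : x + y = ⟨x.a + y.a, x.b + y.b, x.c + y.c⟩ := rfl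
theorem C3.neg_eq (x : C3 R) : -x = ⟨-x.a, -x.b, -x.c⟩ := rfl
theorem C3.zero_eq : (0 : C3 R) = ⟨0, 0, 0⟩ := rfl
theorem C3.one_eq : (1 : C3 R) = ⟨1, 0, 0⟩ := rfl
theorem C3.mul_eq (x y : C3 R) : x * y = ⟨x.a * y.a + (x.b * y.c + x.c * y.b),
  x.a * y.b + x.b * y.a + (x.b * y.c + x.c * y.b) + x.c * y.c, x.a * y.c + x.b * y.b + x.c * y.a + x.c * y.c⟩ := rfl

instance C3.ring : CommRing (C3 R) := CommRing.ofMinimalAxioms
  (fun _ _ _ => by ext <;> simp only [C3.add_eq] <;> ring)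
  (fun _ => by ext <;> simp only [C3.add_eq, C3.zero_eq] <;> ring)
  (fun _ => by ext <;> simp only [C3.add_eq, C3.zero_eq, C3.neg_eq] <;> ring)
  (fun _ _ _ => by ext <;> simp only [C3.mul_eq] <;> ring)
  (fun _ _ => by ext <;> simp only [C3.mul_eq] <;> ring)
  (fun _ => by ext <;> simp only [C3.mul_eq, C3.one_eq] <;> ring)
  (fun _ _ _ => by ext <;> simp only [C3.mul_eq, C3.add_eq] <;> ring)

/-- quadratic extensions of prime fields -/
abbrev Q2 (p : ℕ) (a b : ZMod p) : Type := QuadraticAlgebra (ZMod p) a b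

/-- base -/
def b2 (p : ℕ) (a b : ZMod p) : List (Q2 p a b) := [⟨1, 0⟩, ⟨0, 1⟩]
/-- coordinates -/
def c2 (p : ℕ) (a b : ZMod p) (x : Q2 p a b) : List ℕ := [x.re.val, x.im.val]
/-- base -/
def b3 (p : ℕ) : List (C3 (ZMod p)) := [⟨1, 0, 0⟩, ⟨0, 1, 0⟩, ⟨0, 0, 1⟩]
/-- coordinates -/
def c3 (p : ℕ) (x : C3 (ZMod p)) : List ℕ := [x.a.val, x.b.val, x.c.val]
/-- the field with 16 elements -/
abbrev Q4 : Type := QuadraticAlgebra (Q2 2 1 1) ⟨0, 1⟩ 1
/-- base -/
def b4 : List Q4 := [⟨⟨1, 0⟩, 0⟩, ⟨⟨0, 1⟩, 0⟩, ⟨0, ⟨1, 0⟩⟩, ⟨0, ⟨0, 1⟩⟩]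
/-- coordinates -/
def c4 (x : Q4) : List ℕ := [x.re.re.val, x.re.im.val, x.im.re.val, x.im.im.val]

theorem rg4 : Rg (Q2 2 1 1) 2 2 (b2 2 1 1) (c2 2 1 1) :=
  ⟨by decide, by decide +kernel, rfl, by decide +kernel, by decide +kernel, by decide +kernel, by decide +kernel⟩
theorem rg9 : Rg (Q2 3 2 0) 3 2 (b2 3 2 0) (c2 3 2 0) :=
  ⟨by decide, by decide +kernel, rfl, by decide +kernel, by decide +kernel, by decide +kernel, by decide +kernel⟩
theorem rg25 : Rg (Q2 5 2 0) 5 2 (b2 5 2 0) (c2 5 2 0) :=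
  ⟨by decide, by decide +kernel, rfl, by decide +kernel, by decide +kernel, by decide +kernel, by decide +kernel⟩
theorem rg8 : Rg (C3 (ZMod 2)) 2 3 (b3 2) (c3 2) :=
  ⟨by decide, by decide +kernel, rfl, by decide +kernel, by decide +kernel, by decide +kernel, by decide +kernel⟩
theorem rg27 : Rg (C3 (ZMod 3)) 3 3 (b3 3) (c3 3) :=
  ⟨by decide, by decide +kernel, rfl, by decide +kernel, by decide +kernel, by decide +kernel, by decide +kernel⟩
theorem rg16 : Rg Q4 2 4 b4 c4 :=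
  ⟨by decide, by decide +kernel, rfl, by decide +kernel, by decide +kernel, by decide +kernel, by decide +kernel⟩

/-- indices -/
def ix2 (m : ℕ) : Fin m ⊕ Fin m → ℕ := Sum.elim Fin.val fun i => m + i.val

/-- indices -/
def il2 (a b : ℕ) : List (Fin a ⊕ Fin b) := (List.finRange a).map .inl ++ (List.finRange b).map .inr

theorem il_fin (m : ℕ) (h : m * g = n ∧ p ≤ B ∧ n * ((p - 1) * (p - 1)) < B) : Il p g B n (List.finRange m) :=
  ⟨List.nodup_finRange m, List.mem_finRange, by rw [List.length_finRange, h.1], h.2.1, h.2.2⟩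

theorem nodup_sum {α β : Type} {l : List α} {l' : List β} (h : l.Nodup) (h' : l'.Nodup) :
    (l.map Sum.inl ++ l'.map Sum.inr).Nodup :=
  List.Nodup.append (h.map Sum.inl_injective) (h'.map Sum.inr_injective) (by simp [List.disjoint_left])

theorem il_two (a b : ℕ) (h : (a + b) * g = n ∧ p ≤ B ∧ n * ((p - 1) * (p - 1)) < B) : Il p g B n (il2 a b) :=
  ⟨nodup_sum (List.nodup_finRange a) (List.nodup_finRange b), by rintro (i | i) <;> simp [il2],
    by rw [il2, List.length_append, List.length_map, List.length_map, List.length_finRange, List.length_finRange, h.1],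
    h.2.1, h.2.2⟩

end Cfsg.Agent.N2.Tg.Eng
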