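import Cfsg.Agent.N2.Tri.Defs

/-!
# N2 (S3519): a kernel engine for groups acting on vector spaces over prime fields (helper6)

A vector is a number whose digits in base `B` are its coordinates, an endomorphism is the list of the images of the base.
-/

set_option autoImplicit false

namespace Cfsg.Agent.N2.Tg.Eng

open Subgroup

/-- forcing -/
noncomputable def frc {β : Type} (x : ℕ) (f : ℕ → β) : β := Nat.rec (f 0) (fun n _ => f (Nat.succ n)) x

theorem frc_eq {β : Type} (x : ℕ) (f : ℕ → β) : frc x f = f x := by cases x <;> rfl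

/-- forcing of lists -/
noncomputable def frcL {β : Type} (l : List ℕ) : (List ℕ → β) → β :=
  List.rec (fun k => k []) (fun a _ ih k => frc a fun a' => ih fun l' => k (a' :: l')) l

theorem frcL_eq {β : Type} : ∀ (l : List ℕ) (k : List ℕ → β), frcL l k = k l
  | [], _ => rfl
  | a :: l, k => by
    show frc a (fun a' => frcL l fun l' => k (a' :: l')) = _
    rw [frc_eq, frcL_eq l]

/-- forcing of lists of lists -/
noncomputable def frcM {β : Type} (l : List (List ℕ)) : (List (List ℕ) → β) → β :=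
  List.rec (fun k => k []) (fun a _ ih k => frcL a fun a' => ih fun l' => k (a' :: l')) l

theorem frcM_eq {β : Type} : ∀ (l : List (List ℕ)) (k : List (List ℕ) → β), frcM l k = k l
  | [], _ => rfl
  | a :: l, k => by
    show frcL a (fun a' => frcM l fun l' => k (a' :: l')) = _
    rw [frcL_eq, frcM_eq l]

/-! ### codes -/

/-- reduction of the digits -/
noncomputable def red (p B n : ℕ) : ℕ → ℕ :=
  Nat.rec (fun _ => 0) (fun _ ih v => Nat.add (Nat.mod (Nat.mod v B) p) (Nat.mul B (frc (Nat.div v B) ih))) n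

/-- linear combinations -/
noncomputable def mvA (B : ℕ) (P : List ℕ) : ℕ → ℕ :=
  List.rec (fun _ => 0) (fun c _ ih v => Nat.add (Nat.mul (Nat.mod v B) c) (frc (Nat.div v B) ih)) P

/-- the image of a vector -/
noncomputable def mv (p B n : ℕ) (P : List ℕ) (v : ℕ) : ℕ := frc (mvA B P v) (red p B n)

/-- the product -/
noncomputable def cmp (p B n : ℕ) (P Q : List ℕ) : List ℕ := List.rec [] (fun c _ ih => mv p B n P c :: ih) Q

theorem cmp_eq (p B n : ℕ) (P : List ℕ) : ∀ Q, cmp p B n P Q = Q.map (mv p B n P)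
  | [] => rfl
  | c :: Q => congrArg (mv p B n P c :: ·) (cmp_eq p B n P Q)

/-- the identity -/
noncomputable def idC (B n : ℕ) : List ℕ := Nat.rec [] (fun _ ih => 1 :: ih.map (Nat.mul B)) n

/-- powers -/
noncomputable def pw (p B n : ℕ) (P : List ℕ) (k : ℕ) : List ℕ :=
  Nat.rec (idC B n) (fun _ ih => frcL ih (cmp p B n P)) k

/-- words -/
noncomputable def ev (p B n : ℕ) (gs : List (List ℕ)) (w : List ℕ) : List ℕ :=
  List.rec (idC B n) (fun i _ ih => frcL ih (cmp p B n (gs.getD i (idC B n)))) w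

/-- the endomorphisms commute -/
noncomputable def com (p B n : ℕ) (P Q : List ℕ) : Bool :=
  frcL P fun P => frcL Q fun Q => cmp p B n P Q == cmp p B n Q P

/-- all vectors -/
noncomputable def allV (p B n : ℕ) : List ℕ :=
  Nat.rec [0] (fun _ ih => ih.flatMap fun r => (List.range p).map fun d => d + B * r) n

variable {W : Type} [AddCommGroup W] {p B n : ℕ} {bl : List W}

/-- the vector -/
def dec (B : ℕ) : List W → ℕ → W
  | [], _ => 0
  | b :: l, v => (v % B) • b + dec B l (v / B)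

example := @dec.eq_def

/-- reduced codes -/
def Rd (p B : ℕ) : ℕ → ℕ → Prop
  | 0, v => v = 0
  | n + 1, v => v % B < p ∧ Rd p B n (v / B)

example := @Rd.eq_def

/-- bounded digits -/
def Bd (B : ℕ) : ℕ → ℕ → ℕ → Prop
  | 0, _, _ => True
  | n + 1, m, v => v % B ≤ m ∧ Bd B n m (v / B)

example := @Bd.eq_def

theorem dec_zero : ∀ l : List W, dec B l 0 = 0
  | [] => rfl
  | b :: l => by
    show (0 % B) • b + dec B l (0 / B) = 0
    rw [Nat.zero_mod, Nat.zero_div, zero_nsmul, dec_zero l, add_zero]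

theorem rd_zero (hp : 0 < p) : ∀ n, Rd p B n 0
  | 0 => rfl
  | n + 1 => ⟨by rwa [Nat.zero_mod], by rw [Nat.zero_div]; exact rd_zero hp n⟩

theorem bd_zero : ∀ n, Bd B n 0 0
  | 0 => trivial
  | n + 1 => ⟨by rw [Nat.zero_mod], by rw [Nat.zero_div]; exact bd_zero n⟩

theorem Rd.bd : ∀ {n v : ℕ}, Rd p B n v → Bd B n (p - 1) v
  | 0, _, _ => trivial
  | _ + 1, _, h => ⟨Nat.le_sub_one_of_lt h.1, Rd.bd h.2⟩

theorem Bd.mono {a b : ℕ} (hab : a ≤ b) : ∀ {n v : ℕ}, Bd B n a v → Bd B n b v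
  | 0, _, _ => trivial
  | _ + 1, _, h => ⟨h.1.trans hab, Bd.mono hab h.2⟩

theorem dec_add {a b : ℕ} (hab : a + b < B) : ∀ (l : List W) {v w : ℕ}, Bd B l.length a v → Bd B l.length b w →
    Bd B l.length (a + b) (v + w) ∧ dec B l (v + w) = dec B l v + dec B l w
  | [], _, _, _, _ => ⟨trivial, (add_zero _).symm⟩
  | c :: l, v, w, hv, hw => by
    have h0 : v % B + w % B < B := (Nat.add_le_add hv.1 hw.1).trans_lt hab
    have h1 : (v + w) % B = v % B + w % B := Nat.add_mod_of_add_mod_lt h0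
    have h2 : (v + w) / B = v / B + w / B := Nat.add_div_eq_of_add_mod_lt h0
    obtain ⟨h3, h4⟩ := dec_add hab l hv.2 hw.2
    refine ⟨⟨h1 ▸ Nat.add_le_add hv.1 hw.1, h2 ▸ h3⟩, ?_⟩
    show ((v + w) % B) • c + dec B l ((v + w) / B) = ((v % B) • c + dec B l (v / B)) + ((w % B) • c + dec B l (w / B))
    rw [h1, h2, h4, add_nsmul]
    abel

theorem dec_mul (l : List W) {b w : ℕ} (hw : Bd B l.length b w) : ∀ c, c * b < B →
    Bd B l.length (c * b) (c * w) ∧ dec B l (c * w) = c • dec B l w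
  | 0, _ => by
    rw [Nat.zero_mul, Nat.zero_mul, dec_zero, zero_nsmul]
    exact ⟨bd_zero _, rfl⟩
  | c + 1, h => by
    rw [Nat.succ_mul] at h
    obtain ⟨h1, h2⟩ := dec_mul l hw c (by omega)
    obtain ⟨h3, h4⟩ := dec_add h l h1 hw
    rw [Nat.succ_mul, Nat.succ_mul, h4, h2, succ_nsmul]
    exact ⟨h3, rfl⟩

theorem red_succ (v : ℕ) : red p B (n + 1) v = v % B % p + B * red p B n (v / B) :=
  congrArg (fun x => v % B % p + B * x) (frc_eq _ _)

theorem dm {a : ℕ} (ha : a < B) (x : ℕ) : (a + B * x) % B = a ∧ (a + B * x) / B = x :=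
  ⟨by rw [Nat.add_mul_mod_self_left, Nat.mod_eq_of_lt ha],
    by rw [Nat.add_mul_div_left _ _ (by omega), Nat.div_eq_of_lt ha, zero_add]⟩

theorem rd_red (hp : 0 < p) (hB : p ≤ B) : ∀ n v, Rd p B n (red p B n v)
  | 0, _ => rfl
  | n + 1, v => by
    have h := Nat.mod_lt (v % B) hp
    obtain ⟨h1, h2⟩ := dm (h.trans_le hB) (red p B n (v / B))
    rw [red_succ]
    exact ⟨h1.symm ▸ h, h2.symm ▸ rd_red hp hB n _⟩

theorem dec_red (hp : 0 < p) (hB : p ≤ B) (hc : ∀ w : W, p • w = 0) :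
    ∀ (l : List W) (v : ℕ), dec B l (red p B l.length v) = dec B l v
  | [], _ => rfl
  | c :: l, v => by
    obtain ⟨h1, h2⟩ := dm ((Nat.mod_lt (v % B) hp).trans_le hB) (red p B l.length (v / B))
    show (red p B (l.length + 1) v % B) • c + dec B l (red p B (l.length + 1) v / B) = (v % B) • c + dec B l (v / B)
    rw [red_succ, h1, h2, dec_red hp hB hc l]
    congr 1
    conv_rhs => rw [← Nat.mod_add_div (v % B) p, add_nsmul, mul_nsmul, hc, nsmul_zero, add_zero]

theorem mem_allV : ∀ {n v : ℕ}, Rd p B n v → v ∈ allV p B n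
  | 0, _, h => List.mem_singleton.2 h
  | _ + 1, v, h => List.mem_flatMap.2 ⟨v / B, mem_allV h.2, List.mem_map.2 ⟨v % B, List.mem_range.2 h.1, Nat.mod_add_div v B⟩⟩

theorem length_allV : ∀ n, (allV p B n).length = p ^ n
  | 0 => rfl
  | n + 1 => by
    show (List.flatMap _ (allV p B n)).length = _
    simp [List.length_flatMap, length_allV n, pow_succ]

/-- the frame -/
structure Fr (p B n : ℕ) (bl : List W) : Prop where
  two : 2 ≤ p
  le : p ≤ B
  big : n * ((p - 1) * (p - 1)) < B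
  len : bl.length = n
  chr : ∀ w : W, p • w = 0
  sur : ∀ u : W, ∃ v, Rd p B n v ∧ dec B bl v = u
  card : Nat.card W = p ^ n

theorem Fr.finite (F : Fr p B n bl) : Finite W :=
  Nat.finite_of_card_ne_zero (F.card ▸ (Nat.pow_pos (by have := F.two; omega)).ne')

theorem Fr.inj (F : Fr p B n bl) {v w : ℕ} (hv : Rd p B n v) (hw : Rd p B n w) (h : dec B bl v = dec B bl w) : v = w := by
  classical
  have := F.finite
  have := Fintype.ofFinite W
  refine Finset.injOn_of_surjOn_of_card_le (s := (allV p B n).toFinset) (t := Finset.univ) (dec B bl)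
    (fun _ _ => Finset.mem_coe.2 (Finset.mem_univ _)) (fun u _ => ?_) ?_
    (Finset.mem_coe.2 (List.mem_toFinset.2 (mem_allV hv))) (Finset.mem_coe.2 (List.mem_toFinset.2 (mem_allV hw))) h
  · obtain ⟨x, h1, h2⟩ := F.sur u
    exact ⟨x, Finset.mem_coe.2 (List.mem_toFinset.2 (mem_allV h1)), h2⟩
  · rw [Finset.card_univ, ← Nat.card_eq_fintype_card, F.card, ← length_allV (B := B)]
    exact List.toFinset_card_le _

/-- `P` is the code of `σ` -/
def Rep (p B n : ℕ) (bl : List W) (P : List ℕ) (σ : AddMonoid.End W) : Prop :=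
  List.Forall₂ (fun c b => Rd p B n c ∧ dec B bl c = σ b) P bl

theorem mvA_ok (F : Fr p B n bl) {σ : AddMonoid.End W} : ∀ {P : List ℕ} {l : List W},
    List.Forall₂ (fun c b => Rd p B n c ∧ dec B bl c = σ b) P l → l.length ≤ n → ∀ v, Bd B l.length (p - 1) v →
    Bd B bl.length (l.length * ((p - 1) * (p - 1))) (mvA B P v) ∧ dec B bl (mvA B P v) = σ (dec B l v)
  | _, _, .nil, _, _, _ => ⟨by rw [List.length_nil, Nat.zero_mul]; exact bd_zero _, (dec_zero _).trans (map_zero σ).symm⟩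
  | _, _, .cons (a := c) (b := b) (l₁ := P) (l₂ := l) h t, hl, v, hv => by
    rw [List.length_cons] at hl
    have h0 := (Nat.mul_le_mul_right ((p - 1) * (p - 1)) hl).trans_lt F.big
    rw [Nat.succ_mul] at h0
    have h5 : v % B * (p - 1) ≤ (p - 1) * (p - 1) := Nat.mul_le_mul_right _ hv.1
    obtain ⟨h1, h2⟩ := mvA_ok F t (by omega) (v / B) hv.2
    obtain ⟨h3, h4⟩ := dec_mul bl (F.len ▸ h.1.bd) (v % B) (by omega)
    obtain ⟨h6, h7⟩ := dec_add (by omega) bl (h3.mono h5) h1
    have h8 : mvA B (c :: P) v = v % B * c + mvA B P (v / B) := congrArg (fun x => v % B * c + x) (frc_eq _ _)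
    rw [h8, List.length_cons, Nat.succ_mul, Nat.add_comm (l.length * _), h7, h4, h2, h.2]
    exact ⟨h6, by show _ = σ (_ + _); rw [map_add, map_nsmul]⟩

theorem rd_mv (F : Fr p B n bl) (P : List ℕ) (v : ℕ) : Rd p B n (mv p B n P v) := by
  rw [mv, frc_eq]
  exact rd_red (by have := F.two; omega) F.le _ _

variable {P Q : List ℕ} {σ τ : AddMonoid.End W}

theorem Rep.mv (F : Fr p B n bl) (h : Rep p B n bl P σ) {v : ℕ} (hv : Rd p B n v) :
    dec B bl (mv p B n P v) = σ (dec B bl v) := by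
  rw [Eng.mv, frc_eq, ← (mvA_ok F h F.len.le v (F.len ▸ hv.bd)).2, ← F.len]
  exact dec_red (by have := F.two; omega) F.le F.chr _ _

theorem Rep.mul (F : Fr p B n bl) (h : Rep p B n bl P σ) (h' : Rep p B n bl Q τ) :
    Rep p B n bl (cmp p B n P Q) (σ * τ) := by
  rw [Rep, cmp_eq, List.forall₂_map_left_iff]
  exact List.Forall₂.imp (fun c b k => ⟨rd_mv F _ _, by rw [h.mv F k.1, k.2]; rfl⟩) h'

theorem rep_id (hp : 2 ≤ p) (hB : p ≤ B) : ∀ l : List W,
    List.Forall₂ (fun c b => Rd p B l.length c ∧ dec B l c = b) (idC B l.length) l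
  | [] => .nil
  | b :: l => by
    have h1 : 1 % B = 1 := Nat.mod_eq_of_lt (by omega)
    have h2 : 1 / B = 0 := Nat.div_eq_of_lt (by omega)
    refine .cons ⟨⟨by omega, h2 ▸ rd_zero (by omega) _⟩, ?_⟩ ?_
    · show (1 % B) • b + dec B l (1 / B) = b
      rw [h1, h2, one_nsmul, dec_zero, add_zero]
    · refine List.forall₂_map_left_iff.2 ((rep_id hp hB l).imp fun c a k => ?_)
      have h3 : B * c % B = 0 := Nat.mul_mod_right _ _
      have h4 : B * c / B = c := Nat.mul_div_cancel_left _ (by omega)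
      refine ⟨⟨show B * c % B < p by omega, show Rd p B _ (B * c / B) from h4.symm ▸ k.1⟩, ?_⟩
      show (B * c % B) • b + dec B l (B * c / B) = a
      rw [h3, h4, zero_nsmul, zero_add, k.2]

theorem Fr.one (F : Fr p B n bl) : Rep p B n bl (idC B n) 1 := by
  have h := rep_id F.two F.le bl
  rwa [F.len] at h

theorem Rep.eq (F : Fr p B n bl) (h : Rep p B n bl P σ) (h' : Rep p B n bl P τ) : σ = τ :=
  AddMonoidHom.ext fun u => by
    obtain ⟨v, h1, rfl⟩ := F.sur u
    exact (h.mv F h1).symm.trans (h'.mv F h1)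

theorem uniq_aux (F : Fr p B n bl) : ∀ {P Q : List ℕ} {l : List W},
    List.Forall₂ (fun c b => Rd p B n c ∧ dec B bl c = σ b) P l →
    List.Forall₂ (fun c b => Rd p B n c ∧ dec B bl c = σ b) Q l → P = Q
  | _, _, _, .nil, .nil => rfl
  | _, _, _, .cons h t, .cons h' t' => by rw [F.inj h.1 h'.1 (h.2.trans h'.2.symm), uniq_aux F t t']

theorem Rep.uniq (F : Fr p B n bl) (h : Rep p B n bl P σ) (h' : Rep p B n bl Q σ) : P = Q := uniq_aux F h h'

theorem Rep.pw (F : Fr p B n bl) (h : Rep p B n bl P σ) : ∀ k, Rep p B n bl (pw p B n P k) (σ ^ k)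
  | 0 => F.one
  | k + 1 => by
    show Rep p B n bl (frcL (Eng.pw p B n P k) (cmp p B n P)) _
    rw [frcL_eq, pow_succ']
    exact h.mul F (h.pw F k)

theorem Rep.com (F : Fr p B n bl) (h : Rep p B n bl P σ) (h' : Rep p B n bl Q τ) :
    com p B n P Q = true ↔ σ * τ = τ * σ := by
  rw [Eng.com, frcL_eq, frcL_eq, beq_iff_eq]
  exact ⟨fun k => (h.mul F h').eq F (k ▸ h'.mul F h), fun k => (h.mul F h').uniq F (k ▸ h'.mul F h)⟩

/-! ### searches -/

/-- search trees -/
inductive Tr
  | nil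
  | node (l : Tr) (k : ℕ) (r : Tr)

/-- comparison -/
noncomputable def cm {α : Type} (x k : ℕ) (a b c : α) : α := Bool.rec (Bool.rec b c (Nat.blt k x)) a (Nat.blt x k)

theorem cm_self {α : Type} (x : ℕ) (a b c : α) : cm x x a b c = b := by
  have h : Nat.blt x x = false := by
    rw [← Bool.not_eq_true, Nat.blt_eq]
    omega
  rw [cm, h]

theorem cm_cases (x k : ℕ) : (∀ {α : Type} (a b c : α), cm x k a b c = a) ∨ (∀ {α : Type} (a b c : α), cm x k a b c = b) ∨
    (∀ {α : Type} (a b c : α), cm x k a b c = c) := by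
  unfold cm
  cases Nat.blt x k <;> cases Nat.blt k x <;> simp

/-- membership -/
noncomputable def Tr.mem (t : Tr) (x : ℕ) : Bool := Tr.rec false (fun _ k _ a b => cm x k a true b) t

/-- insertion -/
noncomputable def Tr.ins (t : Tr) (x : ℕ) : Tr :=
  Tr.rec (.node .nil x .nil) (fun l k r a b => cm x k (.node a k r) (.node l k r) (.node l k b)) t

/-- insertion with continuations -/
noncomputable def Tr.insK (t : Tr) (x : ℕ) (old : ℕ) : (Tr → ℕ) → ℕ :=
  Tr.rec (fun κ => κ (.node .nil x .nil)) (fun l k r a b κ =>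
    cm x k (a fun l' => κ (.node l' k r)) old (b fun r' => κ (.node l k r'))) t

theorem Tr.insK_eq (x old : ℕ) : ∀ (t : Tr) (κ : Tr → ℕ), t.insK x old κ = bif t.mem x then old else κ (t.ins x)
  | .nil, _ => rfl
  | .node l k r, κ => by
    show cm x k (l.insK x old fun l' => κ (.node l' k r)) old (r.insK x old fun r' => κ (.node l k r')) =
      bif cm x k (l.mem x) true (r.mem x) then old else κ (cm x k (.node (l.ins x) k r) (.node l k r) (.node l k (r.ins x)))
    rw [Tr.insK_eq x old l, Tr.insK_eq x old r]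
    rcases cm_cases x k with h | h | h <;> simp only [h, cond_true]

theorem Tr.mem_ins (x y : ℕ) : ∀ t : Tr, y = x ∨ t.mem y = true → (t.ins x).mem y = true
  | .nil, h => by
    rcases h with rfl | h
    · exact cm_self _ _ _ _
    · exact absurd h Bool.false_ne_true
  | .node l k r, h => by
    have h1 := Tr.mem_ins x y l
    have h2 := Tr.mem_ins x y r
    have h3 : ∀ a b : Tr, (Tr.node a k b).mem y = cm y k (a.mem y) true (b.mem y) := fun _ _ => rfl
    show Tr.mem (cm x k (.node (l.ins x) k r) (.node l k r) (.node l k (r.ins x))) y = _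
    rw [h3] at h
    rcases h with rfl | h
    · rcases cm_cases y k with e | e | e <;> simp only [e, h3]
      exacts [h1 (Or.inl rfl), h2 (Or.inl rfl)]
    · rcases cm_cases x k with e | e | e <;> rcases cm_cases y k with e' | e' | e' <;> simp only [e, e', h3] at h ⊢ <;>
        first | exact h | exact h1 (Or.inr h) | exact h2 (Or.inr h)

/-- keys -/
noncomputable def key (l : List ℕ) : ℕ :=
  List.rec 0 (fun a _ r => Nat.mod (Nat.mul 1125899839733759 (Nat.add a r)) 2305843009213693951) l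

section bfs

variable {γ : Type} (st : γ → List ℕ → List ℕ)

/-- one vertex of the search -/
noncomputable def inn (v : List ℕ) (k : List (List ℕ) → Tr → ℕ → ℕ) (gs : List γ) : List (List ℕ) → Tr → ℕ → ℕ :=
  List.rec k (fun g _ ih s m c => frcL (st g v) fun u => frc (key u) fun h =>
    m.insK h (ih s m c) fun m => frc (Nat.succ c) fun c => ih (u :: s) m c) gs

/-- the search -/
noncomputable def bfs (gs : List γ) (n : ℕ) : List (List ℕ) → Tr → ℕ → ℕ :=
  Nat.rec (fun _ _ c => c) (fun _ ih s => List.rec (fun _ c => c) (fun v s _ => inn st v ih gs s) s) n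

/-- the number of vertices found -/
noncomputable def cnt (gs : List γ) (n : ℕ) (v : List ℕ) : ℕ :=
  frcL v fun v => frc (key v) fun h => bfs st gs n [v] (.node .nil h .nil) 1

/-- the invariant -/
def Inv (O : Set (List ℕ)) (s : List (List ℕ)) (m : Tr) (c : ℕ) : Prop :=
  (∀ v ∈ s, v ∈ O) ∧ ∃ t : Finset (List ℕ), t.card = c ∧ ∀ v ∈ t, v ∈ O ∧ m.mem (key v) = true

variable {st} {O : Set (List ℕ)}

theorem Inv.le (hO : O.Finite) {s : List (List ℕ)} {m : Tr} {c : ℕ} (h : Inv O s m c) : c ≤ O.ncard := by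
  obtain ⟨-, t, rfl, ht⟩ := h
  rw [← Set.ncard_coe_finset]
  exact Set.ncard_le_ncard (fun v hv => (ht v hv).1) hO

theorem inn_le {v : List ℕ} {k : List (List ℕ) → Tr → ℕ → ℕ} (hk : ∀ s m c, Inv O s m c → k s m c ≤ O.ncard) :
    ∀ gs : List γ, (∀ g ∈ gs, st g v ∈ O) → ∀ s m c, Inv O s m c → inn st v k gs s m c ≤ O.ncard
  | [], _ => hk
  | g :: gs, h => fun s m c hi => by
    have ih := inn_le hk gs fun a ha => h a (List.mem_cons_of_mem _ ha)
    have h1 : inn st v k (g :: gs) s m c = frcL (st g v) fun u => frc (key u) fun h =>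
      m.insK h (inn st v k gs s m c) fun m => frc (Nat.succ c) fun c => inn st v k gs (u :: s) m c := rfl
    rw [h1, frcL_eq, frc_eq, Tr.insK_eq]
    cases h2 : m.mem (key (st g v))
    · rw [cond_false, frc_eq]
      obtain ⟨k1, t, k2, k3⟩ := hi
      refine ih _ _ _ ⟨fun u hu => ?_, insert (st g v) t, ?_, fun u hu => ?_⟩
      · rcases List.mem_cons.1 hu with rfl | hu
        · exact h g List.mem_cons_self
        · exact k1 u hu
      · rw [Finset.card_insert_of_notMem fun e => by simp [(k3 _ e).2] at h2, k2]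
      · rcases Finset.mem_insert.1 hu with rfl | hu
        · exact ⟨h g List.mem_cons_self, Tr.mem_ins _ _ _ (Or.inl rfl)⟩
        · exact ⟨(k3 u hu).1, Tr.mem_ins _ _ _ (Or.inr (k3 u hu).2)⟩
    · exact ih _ _ _ hi

theorem bfs_le (hO : O.Finite) {gs : List γ} (h : ∀ g ∈ gs, ∀ v ∈ O, st g v ∈ O) :
    ∀ n s m c, Inv O s m c → bfs st gs n s m c ≤ O.ncard
  | 0, _, _, _, hi => hi.le hO
  | _ + 1, [], _, _, hi => hi.le hO
  | n + 1, v :: s, m, c, hi =>
    inn_le (bfs_le hO h n) gs (fun g hg => h g hg v (hi.1 v List.mem_cons_self)) s m c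
      ⟨fun u hu => hi.1 u (List.mem_cons_of_mem _ hu), hi.2⟩

theorem cnt_le (hO : O.Finite) {gs : List γ} (h : ∀ g ∈ gs, ∀ v ∈ O, st g v ∈ O) (n : ℕ) {v : List ℕ} (hv : v ∈ O) :
    cnt st gs n v ≤ O.ncard := by
  rw [cnt, frcL_eq, frc_eq]
  refine bfs_le hO h _ _ _ _ ⟨fun u hu => by rwa [List.mem_singleton.1 hu], {v}, rfl, fun u hu => ?_⟩
  rw [Finset.mem_singleton.1 hu]
  exact ⟨hv, Tr.mem_ins _ _ .nil (Or.inl rfl)⟩

end bfs

end Cfsg.Agent.N2.Tg.Eng
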