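import Cfsg.Agent.N2.Tri.Eng

/-!
# N2 (S3519): stabiliser chains, triples and conjugacy classes by the engine (helper6)
-/

set_option autoImplicit false
set_option linter.unusedSectionVars false

namespace Cfsg.Agent.N2.Tg.Eng

open Subgroup

section syl

variable {N : Type*} [Group N] [Finite N] {r : ℕ} {g : N}

theorem conj_pow_pow {c : N} {j : ℕ} (h : c * g * c⁻¹ = g ^ j) : ∀ k, c ^ k * g * (c ^ k)⁻¹ = g ^ j ^ k
  | 0 => by simp
  | k + 1 => by
    calc _ = c ^ k * (c * g * c⁻¹) * (c ^ k)⁻¹ := by rw [pow_succ]; group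
      _ = (c ^ k * g * (c ^ k)⁻¹) ^ j := by rw [h, conj_pow]
      _ = _ := by rw [conj_pow_pow h k, ← pow_mul, pow_succ]

/-- the Sylow count -/
theorem syl_core (hr : r.Prime) (h2 : ¬ r ^ 2 ∣ Nat.card N) (hg : orderOf g = r) {j : ℕ} (hj : IsConj g (g ^ j)) :
    ∃ a k m, a < r ∧ j ^ a % r = 1 ∧ Nat.card (centralizer ({g} : Set N)) = r * k ∧ Nat.card N = r * k * a * m ∧ m % r = 1 := by
  have : Fact r.Prime := ⟨hr⟩
  have h0 : Nat.card (zpowers g) = r := by rw [Nat.card_zpowers, hg]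
  have h1 : (Nat.card N).factorization r = 1 := le_antisymm
    (Nat.lt_succ_iff.1 (not_le.1 fun h => h2 ((hr.pow_dvd_iff_le_factorization Nat.card_pos.ne').2 h)))
    ((hr.dvd_iff_one_le_factorization Nat.card_pos.ne').1 (h0 ▸ card_subgroup_dvd_card _))
  have h3 := card_sylow_modEq_one r N
  rw [(Sylow.ofCard (zpowers g) (by rw [h0, h1, pow_one])).card_eq_index_normalizer] at h3
  change (normalizer (zpowers g : Set N)).index ≡ 1 [MOD r] at h3
  have h4 : centralizer (zpowers g : Set N) = centralizer {g} := by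
    refine le_antisymm (centralizer_le (by simp)) fun c hc => mem_centralizer_iff.2 fun w hw => ?_
    obtain ⟨i, rfl⟩ := mem_zpowers_iff.1 hw
    exact (show Commute g c from (mem_centralizer_singleton_iff.1 hc).symm).zpow_left i
  obtain ⟨k, hk⟩ : r ∣ Nat.card (centralizer ({g} : Set N)) :=
    h0 ▸ card_dvd_of_le (zpowers_le.2 (mem_centralizer_singleton_iff.2 rfl))
  have h5 := (zpowers g).normalizerMonoidHom.ker.card_mul_index
  rw [index_ker, normalizerMonoidHom_ker, Nat.card_congr (subgroupOfEquivOfLe (centralizer_le_normalizer _)).toEquiv, h4,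
    hk] at h5
  have h6 := card_subgroup_dvd_card (zpowers g).normalizerMonoidHom.range
  rw [IsCyclic.card_mulAut, h0, Nat.totient_prime hr] at h6
  have h7 := hr.two_le
  refine ⟨_, k, _, (Nat.le_of_dvd (by omega) h6).trans_lt (by omega), ?_, hk, by rw [h5, card_mul_index],
    Eq.trans h3 (Nat.mod_eq_of_lt h7)⟩
  obtain ⟨c, hc⟩ := isConj_iff.1 hj
  have h8 : c ∈ normalizer (zpowers g : Set N) := mem_normalizer_fintype fun x ⟨i, hi⟩ => by
    rw [← hi, ← conj_zpow, hc]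
    exact zpow_mem (pow_mem (mem_zpowers g) _) _
  have h9 : (⟨c, h8⟩ : normalizer (zpowers g : Set N)) ^ Nat.card (zpowers g).normalizerMonoidHom.range ∈
      (zpowers g).normalizerMonoidHom.ker := by
    rw [MonoidHom.mem_ker, map_pow]
    exact congrArg Subtype.val (pow_card_eq_one' (x := (⟨_, ⟨⟨c, h8⟩, rfl⟩⟩ : (zpowers g).normalizerMonoidHom.range)))
  rw [normalizerMonoidHom_ker, mem_subgroupOf, h4] at h9
  have h10 := conj_pow_pow hc (Nat.card (zpowers g).normalizerMonoidHom.range)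
  rw [show c ^ _ * g = g * c ^ _ from mem_centralizer_singleton_iff.1 h9, mul_inv_cancel_right] at h10
  conv_lhs at h10 => rw [← pow_one g]
  have h11 := pow_eq_pow_iff_modEq.1 h10
  rw [hg] at h11
  exact Eq.trans h11.symm (Nat.mod_eq_of_lt h7)

/-- the check -/
def scB (o r j b : ℕ) : Bool :=
  (List.range r).all fun a => j ^ a % r != 1 || (List.range (b / r + 1)).all fun k =>
    k == 1 || o % (r * k * a) != 0 || o / (r * k * a) % r != 1

theorem sc_of_le (hr : r.Prime) {o j b : ℕ} (ho : Nat.card N = o) (h2 : ¬ r ^ 2 ∣ o) (hg : orderOf g = r)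
    (hj : IsConj g (g ^ j)) (hb : Nat.card (centralizer ({g} : Set N)) ≤ b) (h : scB o r j b = true) : SC N r := by
  obtain ⟨a, k, m, h1, h3, h4, h5, h6⟩ := syl_core hr (ho ▸ h2) hg hj
  have h0 : 0 < r * k * a := Nat.pos_of_mul_pos_right (h5 ▸ Nat.card_pos)
  simp only [scB, List.all_eq_true, List.mem_range, Bool.or_eq_true, bne_iff_ne, beq_iff_eq] at h
  have h7 := (h a h1).resolve_left (not_not.2 h3) k
    (Nat.lt_succ_of_le ((Nat.le_div_iff_mul_le hr.pos).2 (by rw [mul_comm, ← h4]; exact hb)))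
  rw [← ho, h5, Nat.mul_mod_right, Nat.mul_div_cancel_left _ h0] at h7
  have h8 : k = 1 := by omega
  refine ⟨g, hg, (eq_of_le_of_card_ge (zpowers_le.2 (mem_centralizer_singleton_iff.2 rfl)) ?_).ge⟩
  rw [h4, h8, Nat.card_zpowers, hg, mul_one]

theorem cent_mul_class (g : N) : Nat.card (centralizer ({g} : Set N)) * {y | IsConj y g}.ncard = Nat.card N := by
  have h := (MulAction.stabilizer (ConjAct N) g).card_mul_index
  rw [MulAction.index_stabilizer, ConjAct.stabilizer_eq_centralizer] at h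
  refine Eq.trans ?_ h
  congr 2
  exact Set.ext fun y => ConjAct.mem_orbit_conjAct.symm

end syl

variable {W : Type} [AddCommGroup W] {p B n : ℕ} {bl : List W} {G : Type} [Group G] {ρ : G →* AddMonoid.End W}

/-- `P` is the code of an element of `K` -/
def In (p B n : ℕ) (bl : List W) (ρ : G →* AddMonoid.End W) (K : Subgroup G) (P : List ℕ) : Prop :=
  ∃ a ∈ K, Rep p B n bl P (ρ a)

variable {K : Subgroup G} {gs : List (List ℕ)}

theorem ev_in (F : Fr p B n bl) (h : ∀ P ∈ gs, In p B n bl ρ K P) : ∀ w, In p B n bl ρ K (ev p B n gs w)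
  | [] => ⟨1, K.one_mem, map_one ρ ▸ F.one⟩
  | i :: w => by
    obtain ⟨a, ha, h1⟩ := ev_in F h w
    obtain ⟨b, hb, h2⟩ : In p B n bl ρ K (gs.getD i (idC B n)) := by
      by_cases k : i < gs.length
      · rw [List.getD_eq_getElem _ _ k]
        exact h _ (List.getElem_mem k)
      · rw [List.getD_eq_default _ _ (by omega)]
        exact ⟨1, K.one_mem, map_one ρ ▸ F.one⟩
    refine ⟨b * a, K.mul_mem hb ha, ?_⟩
    show Rep p B n bl (frcL (ev p B n gs w) (cmp p B n (gs.getD i (idC B n)))) _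
    rw [frcL_eq, map_mul]
    exact h2.mul F h1

theorem map_in (F : Fr p B n bl) (h : ∀ P ∈ gs, In p B n bl ρ K P) (ws : List (List ℕ)) :
    ∀ P ∈ ws.map (ev p B n gs), In p B n bl ρ K P := fun P hP => by
  obtain ⟨u, -, rfl⟩ := List.mem_map.1 hP
  exact ev_in F h u

theorem finite_of (F : Fr p B n bl) (hρ : Function.Injective ρ) : Finite G := by
  have := F.finite
  exact Finite.of_injective (fun g => (ρ g : W → W)) (DFunLike.coe_injective.comp hρ)

theorem orb_le (ρ : G →* AddMonoid.End W) (K : Subgroup G) (u : W) : ∃ S : Subgroup G, (∀ a ∈ K, ρ a u = u → a ∈ S) ∧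
    Nat.card S * {w | ∃ a ∈ K, ρ a u = w}.ncard = Nat.card K := by
  let _ : MulAction K W := MulAction.compHom W (ρ.comp K.subtype)
  refine ⟨(MulAction.stabilizer K u).map K.subtype, fun a ha h => ⟨⟨a, ha⟩, h, rfl⟩, ?_⟩
  rw [card_map_of_injective K.subtype_injective, ← (MulAction.stabilizer K u).card_mul_index, MulAction.index_stabilizer]
  congr 2
  exact Set.ext fun w => ⟨fun ⟨a, ha, h⟩ => ⟨⟨a, ha⟩, h⟩, fun ⟨a, h⟩ => ⟨a, a.2, h⟩⟩

/-- stabiliser chains: base vector, length of the orbit, fuel, words for the next level -/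
noncomputable def chain (p B n : ℕ) (L : List (ℕ × ℕ × ℕ × List (List ℕ))) : List (List ℕ) → Bool :=
  List.rec (fun _ => true) (fun e _ ih gs => Nat.beq (red p B n e.1) e.1 &&
    Nat.ble e.2.1 (cnt (cmp p B n) gs e.2.2.1 [e.1]) &&
      frcM (e.2.2.2.map (ev p B n gs)) fun gs => (gs.all fun g => Nat.beq (mv p B n g e.1) e.1) && ih gs) L

theorem chain_le (F : Fr p B n bl) [Finite G] : ∀ (L : List (ℕ × ℕ × ℕ × List (List ℕ))) (K : Subgroup G) (gs : List (List ℕ)),
    (∀ P ∈ gs, In p B n bl ρ K P) → chain p B n L gs = true → (L.map fun e => e.2.1).prod ≤ Nat.card K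
  | [], K, _, _, _ => Nat.card_pos
  | e :: L, K, gs, h, c => by
    have := F.finite
    have c' : (Nat.beq (red p B n e.1) e.1 && Nat.ble e.2.1 (cnt (cmp p B n) gs e.2.2.1 [e.1]) &&
      frcM (e.2.2.2.map (ev p B n gs)) fun gs => (gs.all fun g => Nat.beq (mv p B n g e.1) e.1) && chain p B n L gs) = true := c
    simp only [frcM_eq, Bool.and_eq_true, List.all_eq_true, Nat.ble_eq, Nat.beq_eq] at c'
    obtain ⟨⟨e1, e2⟩, e3, e4⟩ := c'
    have h0 : Rd p B n e.1 := e1 ▸ rd_red (by have := F.two; omega) F.le _ _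
    obtain ⟨S, hS, hc⟩ := orb_le ρ K (dec B bl e.1)
    have h2 := chain_le F L S _ (fun P hP => by
      obtain ⟨a, ha, k⟩ := map_in F h _ P hP
      exact ⟨a, hS a ha (by rw [← k.mv F h0, e3 _ hP]), k⟩) e4
    let O : Set (List ℕ) := {l | ∃ v, l = [v] ∧ Rd p B n v ∧ ∃ a ∈ K, ρ a (dec B bl e.1) = dec B bl v}
    have h3 : Set.InjOn (fun l : List ℕ => dec B bl (l.headD 0)) O := by
      rintro _ ⟨v, rfl, k, -⟩ _ ⟨w, rfl, k', -⟩ e
      rw [F.inj k k' e]
    have h1 := e2.trans (cnt_le (O := O) (Set.Finite.of_finite_image (Set.toFinite _) h3) (by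
      rintro P hP _ ⟨v, rfl, k, a, ha, k'⟩
      obtain ⟨b, hb, k1⟩ := h P hP
      exact ⟨_, rfl, rd_mv F _ _, b * a, K.mul_mem hb ha, by rw [k1.mv F k, ← k', map_mul]; rfl⟩) _
        ⟨_, rfl, h0, 1, K.one_mem, by rw [map_one]; rfl⟩)
    have h4 : O.ncard ≤ {w | ∃ a ∈ K, ρ a (dec B bl e.1) = w}.ncard :=
      Set.ncard_le_ncard_of_injOn _ (by rintro _ ⟨v, rfl, -, k⟩; exact k) h3 (Set.toFinite _)
    rw [List.map_cons, List.prod_cons, ← hc, mul_comm]
    exact Nat.mul_le_mul h2 (h1.trans h4)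

variable {N : Type} [Group N] {f : G →* N}

/-- `N = G / Z(G)`, `G` acts faithfully and `gs` are codes of elements -/
structure Cov (p B n : ℕ) (bl : List W) (ρ : G →* AddMonoid.End W) (f : G →* N) (gs : List (List ℕ)) : Prop where
  fr : Fr p B n bl
  inj : Function.Injective ρ
  sur : Function.Surjective f
  ker : ∀ g, f g = 1 ↔ g ∈ center G
  mem : ∀ P ∈ gs, In p B n bl ρ ⊤ P

/-- more generators -/
theorem Cov.ext (C : Cov p B n bl ρ f gs) (ws : List (List ℕ)) {gs' : List (List ℕ)}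
    (h : frcM gs (fun gs => ws.map (ev p B n gs) == gs') = true) : Cov p B n bl ρ f gs' := by
  rw [frcM_eq, beq_iff_eq] at h
  exact ⟨C.fr, C.inj, C.sur, C.ker, h ▸ map_in C.fr C.mem ws⟩

theorem Cov.com (C : Cov p B n bl ρ f gs) {P Q : List ℕ} {a b : G} (h : Rep p B n bl P (ρ a)) (h' : Rep p B n bl Q (ρ b)) :
    com p B n P Q = true ↔ a * b = b * a := by
  rw [h.com C.fr h', ← map_mul, ← map_mul, C.inj.eq_iff]

theorem mem_center_of {x y z : G} (h : closure ({x, y} : Set G) = ⊤) (h1 : Commute z x) (h2 : Commute z y) : z ∈ center G :=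
  mem_center_iff.2 fun a => mem_centralizer_singleton_iff.1 ((closure_le (centralizer {z})).2 (by
    rintro _ (rfl | rfl)
    exacts [mem_centralizer_singleton_iff.2 h1.symm, mem_centralizer_singleton_iff.2 h2.symm]) (h.ge (mem_top a)))

/-- the check for a triple; `c = 0` : the order of the product is not tested -/
noncomputable def chkT (p B n : ℕ) (X Y : List ℕ) (L : List (ℕ × ℕ × ℕ × List (List ℕ))) (o a b c : ℕ) : Bool :=
  frcL X fun X => frcL Y fun Y => chain p B n L [X, Y] && Nat.ble o (L.map fun e => e.2.1).prod &&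
    com p B n (pw p B n X a) Y && com p B n (pw p B n Y b) X && !com p B n X Y &&
      frcL (cmp p B n X Y) fun Z => com p B n (pw p B n Z c) X

theorem Cov.core {X Y : List ℕ} (C : Cov p B n bl ρ f (X :: Y :: gs)) {L : List (ℕ × ℕ × ℕ × List (List ℕ))} {o a b c : ℕ}
    (ho : Nat.card G = o) (h : chkT p B n X Y L o a b c = true) : ∃ x y : N, x ^ a = 1 ∧ y ^ b = 1 ∧
      closure ({x, y} : Set N) = ⊤ ∧ (x * y) ^ c = 1 ∧ x * y ≠ 1 := by
  have := finite_of C.fr C.inj
  simp only [chkT, frcL_eq, Bool.and_eq_true, Nat.ble_eq, Bool.not_eq_true'] at h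
  obtain ⟨⟨⟨⟨⟨h1, h2⟩, h3⟩, h4⟩, h5⟩, h6⟩ := h
  obtain ⟨x, -, hx⟩ := C.mem X (by simp)
  obtain ⟨y, -, hy⟩ := C.mem Y (by simp)
  have h7 : closure ({x, y} : Set G) = ⊤ := eq_top_of_le_card _ (ho.le.trans (h2.trans (chain_le C.fr L _ _ (by
    simp only [List.mem_cons, List.not_mem_nil, or_false, forall_eq_or_imp, forall_eq]
    exact ⟨⟨x, subset_closure (by simp), hx⟩, y, subset_closure (by simp), hy⟩) h1)))
  have h8 : Rep p B n bl (cmp p B n X Y) (ρ (x * y)) := map_mul ρ x y ▸ hx.mul C.fr hy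
  have h9 : Commute ((x * y) ^ c) x := (C.com (map_pow ρ _ c ▸ h8.pw C.fr c) hx).1 h6
  refine ⟨f x, f y, ?_, ?_, closure_pair_map f C.sur h7, ?_, fun k => ?_⟩
  · rw [← map_pow, C.ker]
    exact mem_center_of h7 (Commute.pow_self x a) ((C.com (map_pow ρ x a ▸ hx.pw C.fr a) hy).1 h3)
  · rw [← map_pow, C.ker]
    exact mem_center_of h7 ((C.com (map_pow ρ y b ▸ hy.pw C.fr b) hx).1 h4) (Commute.pow_self y b)
  · rw [← map_mul, ← map_pow, C.ker]
    refine mem_center_of h7 h9 ?_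
    have := h9.inv_right.mul_right (Commute.pow_self (x * y) c)
    rwa [inv_mul_cancel_left] at this
  · rw [← map_mul, C.ker] at k
    have k1 := mem_center_iff.1 k x
    rw [mul_assoc, mul_left_cancel_iff] at k1
    rw [(C.com hx hy).2 k1] at h5
    exact Bool.noConfusion h5

/-- **triples** -/
theorem Cov.tri {X Y : List ℕ} (C : Cov p B n bl ρ f (X :: Y :: gs)) (L : List (ℕ × ℕ × ℕ × List (List ℕ))) {o a b c : ℕ}
    (ho : Nat.card G = o) (hc : c.Prime) (h : chkT p B n X Y L o a b c = true) : Tri N a b c := by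
  obtain ⟨x, y, h1, h2, h3, h4, h5⟩ := C.core ho h
  have : Fact c.Prime := ⟨hc⟩
  exact ⟨x, y, h1, h2, orderOf_eq_prime h4 h5, h3⟩

theorem Cov.any {X Y : List ℕ} (C : Cov p B n bl ρ f (X :: Y :: gs)) (L : List (ℕ × ℕ × ℕ × List (List ℕ))) {o a b : ℕ}
    (ho : Nat.card G = o) (h : chkT p B n X Y L o a b 0 = true) : ∃ c, Tri N a b c := by
  obtain ⟨x, y, h1, h2, h3, -⟩ := C.core ho h
  exact ⟨_, x, y, h1, h2, rfl, h3⟩

/-- the check for an element of prime order -/
noncomputable def chkJ (p B n : ℕ) (gs : List (List ℕ)) (u v : List ℕ) (r j : ℕ) : Bool :=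
  frcM gs fun gs => frcL (ev p B n gs u) fun g => frcL (ev p B n gs v) fun h =>
    pw p B n g r == idC B n && frcL (pw p B n g j) (fun x => cmp p B n h g == cmp p B n x h) && !com p B n g h

theorem Cov.el (C : Cov p B n bl ρ f gs) {u v : List ℕ} {r j : ℕ} (hr : r.Prime) (h : chkJ p B n gs u v r j = true) :
    ∃ g : G, Rep p B n bl (ev p B n gs u) (ρ g) ∧ g ^ r = 1 ∧ orderOf (f g) = r ∧ IsConj (f g) (f g ^ j) := by
  have : Fact r.Prime := ⟨hr⟩
  simp only [chkJ, frcM_eq, frcL_eq, Bool.and_eq_true, beq_iff_eq, Bool.not_eq_true'] at h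
  obtain ⟨⟨h1, h2⟩, h3⟩ := h
  obtain ⟨g, -, hg⟩ := ev_in C.fr C.mem u
  obtain ⟨c, -, hc⟩ := ev_in C.fr C.mem v
  have h4 : g ^ r = 1 := C.inj (by rw [map_pow, map_one]; exact (hg.pw C.fr r).eq C.fr (h1 ▸ C.fr.one))
  have h5 : c * g = g ^ j * c := C.inj (by
    rw [map_mul, map_mul, map_pow]
    exact (hc.mul C.fr hg).eq C.fr (h2 ▸ (hg.pw C.fr j).mul C.fr hc))
  refine ⟨g, hg, h4, orderOf_eq_prime (by rw [← map_pow, h4, map_one]) fun k => ?_,
    isConj_iff.2 ⟨f c, by rw [← map_mul, h5, map_mul, map_pow, mul_inv_cancel_right]⟩⟩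
  rw [(C.com hg hc).2 (mem_center_iff.1 ((C.ker g).1 k) c).symm] at h3
  exact Bool.noConfusion h3

/-- **conjugate powers** -/
theorem Cov.cj (C : Cov p B n bl ρ f gs) (u v : List ℕ) {r j : ℕ} (hr : r.Prime) (h : chkJ p B n gs u v r j = true) :
    Cj N r j :=
  let ⟨g, _, _, h1, h2⟩ := C.el hr h
  ⟨f g, h1, h2⟩

/-- conjugation -/
noncomputable def cjs (p B n : ℕ) (s : List ℕ × List ℕ) (Q : List ℕ) : List ℕ := frcL (cmp p B n Q s.2) (cmp p B n s.1)

/-- the check for a self-centralising element: `a`, `b` have the inverses `a'`, `b'`, at least `t` conjugates -/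
noncomputable def chkS (p B n : ℕ) (gs : List (List ℕ)) (u a a' b b' : List ℕ) (m t : ℕ) : Bool :=
  frcM gs fun gs => frcL (ev p B n gs a) fun a => frcL (ev p B n gs a') fun a' => frcL (ev p B n gs b) fun b =>
    frcL (ev p B n gs b') fun b' => cmp p B n a a' == idC B n && cmp p B n b b' == idC B n &&
      Nat.ble t (cnt (cjs p B n) [(a, a'), (b, b')] m (ev p B n gs u))

/-- **self-centralising elements** -/
theorem Cov.sc (C : Cov p B n bl ρ f gs) (u v a a' b b' : List ℕ) (m t : ℕ) {r j o o' : ℕ} (hr : r.Prime)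
    (ho : Nat.card G = o') (ho' : Nat.card N = o) (h2 : ¬ r ^ 2 ∣ o') (ht : 0 < t) (h : chkJ p B n gs u v r j = true)
    (hS : chkS p B n gs u a a' b b' m t = true) (hb : scB o r j (o / t) = true) : Cj N r j ∧ SC N r := by
  classical
  have := finite_of C.fr C.inj
  have := Finite.of_surjective f C.sur
  obtain ⟨g, h3, h4, h5, h6⟩ := C.el hr h
  simp only [chkS, frcM_eq, frcL_eq, Bool.and_eq_true, beq_iff_eq, Nat.ble_eq] at hS
  obtain ⟨⟨h7, h8⟩, h9⟩ := hS
  have h10 : Nat.card f.ker * Nat.card N = Nat.card G := by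
    rw [← f.ker.card_mul_index, index_ker, MonoidHom.range_eq_top.2 C.sur, card_top]
  have h11 : r ∣ Nat.card N := h5 ▸ orderOf_dvd_natCard _
  let cd : G → List ℕ := fun x => if k : ∃ Q, Rep p B n bl Q (ρ x) then k.choose else []
  have h12 : {Q | ∃ x, IsConj x g ∧ Rep p B n bl Q (ρ x)} ⊆ cd '' {x | IsConj x g} := fun Q ⟨x, k1, k2⟩ =>
    ⟨x, k1, by
      have k : ∃ Q, Rep p B n bl Q (ρ x) := ⟨Q, k2⟩
      simp only [cd, dif_pos k]
      exact k.choose_spec.uniq C.fr k2⟩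
  have h13 : ∀ a a', cmp p B n (ev p B n gs a) (ev p B n gs a') = idC B n →
      ∀ Q ∈ {Q | ∃ x, IsConj x g ∧ Rep p B n bl Q (ρ x)},
        cjs p B n (ev p B n gs a, ev p B n gs a') Q ∈ {Q | ∃ x, IsConj x g ∧ Rep p B n bl Q (ρ x)} := by
    rintro a a' k Q ⟨x, k1, k2⟩
    obtain ⟨c, -, hc⟩ := ev_in C.fr C.mem a
    obtain ⟨c', -, hc'⟩ := ev_in C.fr C.mem a'
    have k3 : c * c' = 1 := C.inj (by rw [map_mul, map_one]; exact (hc.mul C.fr hc').eq C.fr (k ▸ C.fr.one))
    refine ⟨c * (x * c'), (isConj_iff.2 ⟨c, by rw [eq_inv_of_mul_eq_one_right k3, mul_assoc]⟩).symm.trans k1, ?_⟩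
    rw [cjs, frcL_eq, map_mul, map_mul]
    exact hc.mul C.fr (k2.mul C.fr hc')
  have h14 := h9.trans ((cnt_le ((Set.toFinite _).image cd |>.subset h12) (by
    simp only [List.mem_cons, List.not_mem_nil, or_false, forall_eq_or_imp, forall_eq]
    exact ⟨h13 _ _ h7, h13 _ _ h8⟩) m ⟨g, IsConj.refl g, h3⟩).trans ((Set.ncard_le_ncard h12).trans Set.ncard_image_le))
  have h15 : ∀ x, IsConj x g → x ^ r = 1 := fun x k => isConj_one_left.1 (h4 ▸ k.pow r)
  have h16 : {x | IsConj x g}.ncard ≤ {y | IsConj y (f g)}.ncard := by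
    refine Set.ncard_le_ncard_of_injOn f (fun x k => f.map_isConj k) (fun x k y k' e => ?_) (Set.toFinite _)
    have k1 : f (x⁻¹ * y) = 1 := by rw [map_mul, map_inv, e, inv_mul_cancel]
    have k2 : (x⁻¹ * y) ^ r = 1 := by
      have k3 := Commute.mul_pow (mem_center_iff.1 ((C.ker _).1 k1) x) r
      rwa [mul_inv_cancel_left, h15 x k, h15 y k', one_mul, eq_comm] at k3
    rcases (Nat.dvd_prime hr).1 (orderOf_dvd_of_pow_eq_one k2) with k3 | k3
    · exact inv_mul_eq_one.1 (orderOf_eq_one_iff.1 k3)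
    · exact absurd (by
        rw [← ho, ← h10, sq]
        exact Nat.mul_dvd_mul (k3 ▸ f.ker.orderOf_dvd_natCard k1) h11) h2
  refine ⟨⟨f g, h5, h6⟩, sc_of_le hr ho' (fun k => h2 (k.trans ?_)) h5 h6 ((Nat.le_div_iff_mul_le ht).2 ?_) hb⟩
  · rw [← ho, ← ho', ← h10]
    exact Dvd.intro_left _ rfl
  · rw [← ho', ← cent_mul_class (f g)]
    exact Nat.mul_le_mul_left _ (h14.trans h16)

end Cfsg.Agent.N2.Tg.Eng
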