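import Cfsg.Agent.N2.Tri.Mat
import Cfsg.Agent.H239.TPSp

/-!
# N2 (S3519): triples with a conjugate power, orthogonal groups for the engine (helper6)
-/

set_option autoImplicit false
set_option linter.unusedSectionVars false

namespace Cfsg.Agent.N2.Tg.Eng

open Cfsg Subgroup Matrix

section

variable {W : Type} [AddCommGroup W] {p B n : ℕ} {bl : List W} {G : Type} [Group G] {ρ : G →* AddMonoid.End W}
  {N : Type} [Group N] {f : G →* N} {gs : List (List ℕ)}

theorem Cov.triJ {X Y : List ℕ} (C : Cov p B n bl ρ f (X :: Y :: gs)) (L : List (ℕ × ℕ × ℕ × List (List ℕ))) (v : List ℕ)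
    {o a b c j : ℕ} (ho : Nat.card G = o) (h : chkT p B n X Y L o a b 0 = true)
    (h' : chkJ p B n (X :: Y :: gs) [0, 1] v c j = true) : ∃ x y : N, x ^ a = 1 ∧ y ^ b = 1 ∧
      closure ({x, y} : Set N) = ⊤ ∧ (x * y) ^ c = 1 ∧ IsConj (x * y) ((x * y) ^ j) := by
  have := finite_of C.fr C.inj
  simp only [chkT, frcL_eq, Bool.and_eq_true, Nat.ble_eq, Bool.not_eq_true'] at h
  obtain ⟨⟨⟨⟨⟨h1, h2⟩, h3⟩, h4⟩, -⟩, -⟩ := h
  simp only [chkJ, frcM_eq, frcL_eq, Bool.and_eq_true, beq_iff_eq, Bool.not_eq_true'] at h'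
  obtain ⟨⟨h5, h6⟩, -⟩ := h'
  obtain ⟨x, -, hx⟩ := C.mem X (by simp)
  obtain ⟨y, -, hy⟩ := C.mem Y (by simp)
  obtain ⟨u, -, hu⟩ := ev_in C.fr C.mem v
  have h7 : closure ({x, y} : Set G) = ⊤ := eq_top_of_le_card _ (ho.le.trans (h2.trans (chain_le C.fr L _ _ (by
    simp only [List.mem_cons, List.not_mem_nil, or_false, forall_eq_or_imp, forall_eq]
    exact ⟨⟨x, subset_closure (by simp), hx⟩, y, subset_closure (by simp), hy⟩) h1)))
  have h8 : Rep p B n bl (ev p B n (X :: Y :: gs) [0, 1]) (ρ (x * y)) := by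
    show Rep p B n bl (frcL (frcL (idC B n) (cmp p B n Y)) (cmp p B n X)) _
    rw [frcL_eq, frcL_eq, map_mul, ← mul_one (ρ y)]
    exact hx.mul C.fr (hy.mul C.fr C.fr.one)
  have h9 : (x * y) ^ c = 1 := C.inj (by rw [map_pow, map_one]; exact (h8.pw C.fr c).eq C.fr (h5 ▸ C.fr.one))
  have h10 : u * (x * y) = (x * y) ^ j * u := C.inj (by
    rw [map_mul, map_mul ρ _ u, map_pow]
    exact (hu.mul C.fr h8).eq C.fr (h6 ▸ (h8.pw C.fr j).mul C.fr hu))
  refine ⟨f x, f y, ?_, ?_, closure_pair_map f C.sur h7, by rw [← map_mul, ← map_pow, h9, map_one],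
    isConj_iff.2 ⟨f u, by rw [← map_mul f x, ← map_mul, h10, map_mul, map_pow, mul_inv_cancel_right]⟩⟩
  · rw [← map_pow, C.ker]
    exact mem_center_of h7 (Commute.pow_self x a) ((C.com (map_pow ρ x a ▸ hx.pw C.fr a) hy).1 h3)
  · rw [← map_pow, C.ker]
    exact mem_center_of h7 ((C.com (map_pow ρ y b ▸ hy.pw C.fr b) hx).1 h4) (Commute.pow_self y b)

theorem Has.triJ {o : ℕ} {X Y : List ℕ} (H : Has p B n N o (X :: Y :: gs)) (L : List (ℕ × ℕ × ℕ × List (List ℕ)))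
    (v : List ℕ) {a b c j : ℕ} (h : chkT p B n X Y L o a b 0 = true) (h' : chkJ p B n (X :: Y :: gs) [0, 1] v c j = true) :
    ∃ x y : N, x ^ a = 1 ∧ y ^ b = 1 ∧ closure ({x, y} : Set N) = ⊤ ∧ (x * y) ^ c = 1 ∧ IsConj (x * y) ((x * y) ^ j) :=
  let ⟨_, _, _, _, _, _, _, C, k⟩ := H
  C.triJ L v k h h'

theorem mem_comm {x y : G} (h1 : x ^ 2 = 1) (h2 : y ^ 3 = 1) (h3 : (x * y * (x * y * (x * y * y))) ^ 13 = 1) :
    x ∈ commutator G ∧ y ∈ commutator G := by
  have k1 := congrArg Abelianization.of h1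
  have k2 := congrArg Abelianization.of h2
  have k3 := congrArg Abelianization.of h3
  simp only [map_pow, map_mul, map_one] at k1 k2 k3
  have k0 : ∀ a b : Abelianization G, (a * b * (a * b * (a * b * b))) ^ 13 = a ^ 39 * b ^ 52 := fun a b => by
    rw [show a * b * (a * b * (a * b * b)) = a ^ 3 * b ^ 4 by simp only [pow_succ, pow_zero, one_mul]; ac_rfl, mul_pow,
      ← pow_mul, ← pow_mul]
  rw [k0, pow_eq_pow_mod 39 k1, pow_eq_pow_mod 52 k2, show 39 % 2 = 1 from rfl, pow_one,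
    pow_one] at k3
  have k4 : Abelianization.of x = 1 := by
    rw [eq_inv_of_mul_eq_one_right k3, inv_pow, inv_eq_one, pow_succ, k1, one_mul] at k2
    exact k2
  rw [k4, one_mul] at k3
  exact ⟨Abelianization.ker_of G ▸ k4, Abelianization.ker_of G ▸ k3⟩

end

variable {R : Type} [CommRing R] [Fintype R] {p g B n : ℕ} {rb : List R} {co : R → List ℕ} {N : Type} [Group N]

/-- the Gram matrix -/
def gram (m : ℕ) (R : Type) [CommRing R] : Matrix (Unit ⊕ (Fin m ⊕ Fin m)) (Unit ⊕ (Fin m ⊕ Fin m)) R :=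
  fromBlocks 2 0 0 (fromBlocks 0 1 1 0)

theorem gram_eq {m : ℕ} {F : Type} [Field F] (u : Unit ⊕ (Fin m ⊕ Fin m) → F) :
    u ⬝ᵥ gram m F *ᵥ u = 2 * quadFormOdd m F u := by
  have h : (2 : Matrix Unit Unit F) () () = 2 := by
    rw [← one_add_one_eq_two, Matrix.add_apply, one_apply_eq, one_add_one_eq_two]
  simp [gram, quadFormOdd, dotProduct, mulVec, Matrix.one_apply, h, mul_comm, two_mul, sq]
  ring

theorem gram_map {m : ℕ} {F : Type} [Field F] (e : R →+* F) : (gram m R).map e = gram m F := by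
  simp only [gram, fromBlocks_map, Matrix.map_zero _ (map_zero e), Matrix.map_one _ (map_zero e) (map_one e)]
  congr 1
  exact map_ofNat e.mapMatrix 2

/-- indices -/
def ilO (m : ℕ) : List (Unit ⊕ (Fin m ⊕ Fin m)) := [()].map .inl ++ (il2 m m).map .inr

/-- indices -/
def ixO (m : ℕ) : Unit ⊕ (Fin m ⊕ Fin m) → ℕ := Sum.elim (fun _ => 0) fun i => 1 + ix2 m i

theorem il_O (m : ℕ) (h : (1 + (m + m)) * g = n ∧ p ≤ B ∧ n * ((p - 1) * (p - 1)) < B) : Il p g B n (ilO m) :=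
  ⟨nodup_sum (List.nodup_singleton _) (nodup_sum (List.nodup_finRange m) (List.nodup_finRange m)),
    by rintro (i | i | i) <;> simp [ilO, il2], by rw [← h.1]; simp [ilO, il2, add_comm], h.2.1, h.2.2⟩

/-- **orthogonal groups of odd dimension** -/
theorem has_O {m o : ℕ} {il : List (Unit ⊕ (Fin m ⊕ Fin m))} (h : Rg R p g rb co) (I : Il p g B n il)
    (hN : OrdDiv.Real (.oodd m (p ^ g)) N) (hm : 3 ≤ m) (hq : Odd (p ^ g))
    (ho : 2 * o = (p ^ g) ^ (m ^ 2) * ∏ i ∈ Finset.range m, ((p ^ g) ^ (2 * (i + 1)) - 1))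
    (A C : Matrix (Unit ⊕ (Fin m ⊕ Fin m)) (Unit ⊕ (Fin m ⊕ Fin m)) R)
    (hA : (A * A = 1 ∧ Aᵀ * gram m R * A = gram m R) ∧ C * (C * C) = 1 ∧ Cᵀ * gram m R * C = gram m R)
    (h13 : frcL (cod B il rb co A) (fun X => frcL (cod B il rb co C) fun Y => frcL (cmp p B n X Y) fun Z =>
      frcL (cmp p B n Z Y) fun U => frcL (cmp p B n Z U) fun U => frcL (cmp p B n Z U) fun U =>
        pw p B n U 13 == idC B n) = true) : Has p B n N o [cod B il rb co A, cod B il rb co C] := by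
  obtain ⟨F, _, _, hF, ⟨ε⟩⟩ := hN
  obtain ⟨e⟩ := h.equiv hF
  have h2 : (2 : F) ≠ 0 := Ring.two_ne_zero fun k => by
    rw [FiniteField.even_card_iff_char_two, hF] at k
    exact absurd hq (Nat.not_odd_iff_even.2 (Nat.even_iff.2 k))
  let t : isometryGroup F (quadFormOdd m F) →* Matrix _ _ F := (Units.coeHom _).comp (isometryGroup F _).subtype
  have key : ∀ A A' : Matrix _ _ R, A * A' = 1 → Aᵀ * gram m R * A = gram m R →
      ∃ a : isometryGroup F (quadFormOdd m F), t a = A.map e := fun A A' h1 h3 => by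
    have h4 : A.map e * A'.map e = 1 := by
      rw [← RingHom.coe_coe, ← Matrix.map_mul, h1, Matrix.map_one _ (map_zero _) (map_one _)]
    refine ⟨⟨⟨A.map e, A'.map e, h4, mul_eq_one_comm.1 h4⟩, fun u _ => mul_left_cancel₀ h2 ?_⟩, rfl⟩
    have h5 := congrArg (fun M : Matrix _ _ R => M.map (e : R →+* F)) h3
    simp only [Matrix.map_mul, gram_map] at h5
    show 2 * quadFormOdd m F (A.map e *ᵥ u) = 2 * quadFormOdd m F u
    rw [← gram_eq, ← gram_eq, ← vecMul_transpose, ← dotProduct_mulVec, vecMul_transpose, mulVec_mulVec, mulVec_mulVec]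
    exact congrArg (fun M => u ⬝ᵥ M *ᵥ u) h5
  obtain ⟨x, hx⟩ := key A A hA.1.1 hA.1.2
  obtain ⟨y, hy⟩ := key C _ hA.2.1 hA.2.2
  have ht : Function.Injective t := Units.val_injective.comp Subtype.val_injective
  have h3 : ∀ (a : isometryGroup F (quadFormOdd m F)) A, t a = A.map e →
      Rep p B n (bas il rb) (cod B il rb co A) (rF e (t a)) := fun a A k => by
    rw [k, rF_map]
    exact h.rep I A
  simp only [frcL_eq, beq_iff_eq] at h13
  obtain ⟨h4, h5⟩ := mem_comm (x := x) (y := y)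
    (ht (by rw [map_pow, map_one, hx, sq, ← RingHom.coe_coe, ← Matrix.map_mul, hA.1.1,
      Matrix.map_one _ (map_zero _) (map_one _)]))
    (ht (by rw [map_pow, map_one, hy, pow_succ', sq, ← RingHom.coe_coe, ← Matrix.map_mul, ← Matrix.map_mul,
      hA.2.1, Matrix.map_one _ (map_zero _) (map_one _)]))
    (ht (rF_inj e (by
      have k := (h3 x A hx).mul (h.fr I) (h3 y C hy)
      simp only [map_pow, map_mul, map_one]
      exact ((k.mul (h.fr I) (k.mul (h.fr I) (k.mul (h.fr I) (h3 y C hy)))).pw (h.fr I) 13).eq (h.fr I)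
        (h13 ▸ (h.fr I).one))))
  refine ⟨_, _, _, _, _, (rF e).comp (t.comp (commutator _).subtype), prj ε, ⟨h.fr I,
    (rF_inj e).comp (ht.comp Subtype.val_injective), prj_sur ε, prj_ker ε,
    two_mem ⟨⟨⟨x, h4⟩, mem_top _, h3 x A hx⟩, ⟨y, h5⟩, mem_top _, h3 y C hy⟩⟩, ?_⟩
  refine Nat.eq_of_mul_eq_mul_left two_pos (Eq.trans ?_ ((S0292.result hF (hF ▸ hq) m hm).trans ho.symm))
  rw [card_eq_card_quotient_mul_card_subgroup (center _), card_eq_one.2 (H239.TPSp.center_bot F h2 (by omega)), mul_one]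

end Cfsg.Agent.N2.Tg.Eng
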