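import Cfsg.Agent.N2.Tri.MatO

/-!
# N2 (S3519): triples of `O₇(3)` (helper6)
-/

set_option autoImplicit false

namespace Cfsg.Agent.N2.Tg.O7

open Cfsg Cfsg.Agent.N2.Tg.Eng

variable {N : Type} [Group N]

theorem dat_o7_3 (h : OrdDiv.Real (.oodd 3 3) N) :
    (∃ c, Tri N 2 3 c) ∧ Cj N 13 3 := by
  have H := (has_O (B := 32) (n := 7) (o := 4585351680) (rg_prime 3 (by norm_num)) (il_O 3 (by decide)) h (by decide) (by decide) (by decide +kernel)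
    (mat 3 ([1] : List (ZMod 3)) (ixO 3) [[2, 0, 0, 2, 2, 2, 0], [1, 0, 2, 2, 0, 2, 2], [1, 0, 2, 2, 2, 2, 2], [0, 0, 0, 1, 2, 2, 0], [0, 1, 2, 0, 0, 0, 0], [0, 2, 1, 0, 2, 2, 0], [1, 0, 0, 2, 2, 2, 1]])
    (mat 3 ([1] : List (ZMod 3)) (ixO 3) [[1, 2, 2, 0, 1, 2, 1], [1, 0, 0, 2, 2, 2, 1], [2, 1, 1, 2, 0, 0, 1], [1, 1, 1, 0, 0, 2, 0], [2, 0, 1, 0, 1, 2, 2], [2, 1, 0, 0, 2, 0, 0], [0, 1, 2, 1, 1, 2, 1]]) (by decide +kernel) (by decide +kernel)).ext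
    [[0], [1], [0], [1, 1]]
    [[1073742882, 68157440, 35653696, 2147518530, 2214660098, 2214660162, 1073743936], [69240865, 1107330050, 2148566018, 1073743936, 1141899329, 2149646402, 1075840033], [1073742882, 68157440, 35653696, 2147518530, 2214660098, 2214660162, 1073743936], [34669633, 33622049, 1048641, 1141934112, 2147518530, 2182119425, 34605058]] (by decide +kernel)
  exact ⟨H.any [(1, 756, 740, [[0, 1, 1, 0, 1, 1, 0, 1, 1, 0, 1, 0, 1, 0, 1, 0, 1, 0, 1, 0, 1], [1, 1, 0, 1, 0, 1, 0, 1, 0, 1, 0, 1, 1]]),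
    (32, 260, 246, [[1, 0, 1, 0, 1, 1, 0, 0, 0, 1, 0, 1, 0, 0], [1, 0, 1, 0, 0, 1, 1, 0, 0, 1, 0, 0]]),
    (1024, 96, 87, [[0, 0, 0, 0, 1, 1, 0, 0, 1, 1], [0, 0, 1, 0, 0, 1, 0, 0, 0, 1, 1, 1, 0, 1], [1, 0, 0, 0, 1, 0, 1, 0], [0, 0, 0, 0, 1]]),
    (1048576, 27, 18, [[0, 0, 1, 2, 1, 1], [3, 3, 1, 3, 0]]),
    (33554432, 9, 6, [])]
    (by decide +kernel),
    H.cj [1, 2, 3, 0, 1, 0] [2, 1, 2, 1, 2, 1, 2, 3, 2, 3, 2, 3, 2, 1, 2, 1, 2, 3, 2, 1, 2, 3, 2, 1, 2, 3, 2, 3, 0, 1, 0, 1, 0, 1, 0, 3, 0, 1, 0, 1, 0, 3, 0, 1, 0, 1, 0, 3, 0, 3, 0, 3, 0, 3] (by norm_num) (by decide +kernel)⟩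

end Cfsg.Agent.N2.Tg.O7
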