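import Cfsg.Agent.N2.Tri.Defs
import Cfsg.Agent.LieClassical.OrthCore

/-!
# N2 triples: two-generation of `E Q` for a quadratic form on `𝔽₂⁸` by computation with codes (helper38)

* `Ac dec g f` : `g` acts on the codes below `256` as `f`;
* `wd x y l`, `ew fx fy l` : words in two letters and their computed action;
* `top_of_chk` : a certificate for `closure {x, y} = ⊤` (one Siegel transformation as a word, words in the stabiliser
  of a singular vector, transitivity on the singular vectors).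
-/

set_option autoImplicit false

namespace Cfsg.Agent.N2.Tg.Orth

open QuadraticMap Subgroup Cfsg.Agent.LieClassical.OrthCore

section words

variable {G : Type*} [Group G]

/-- words in two letters -/
def wd (x y : G) : List Bool → G
  | [] => 1
  | b :: l => (if b then y else x) * wd x y l

example := @wd.eq_def

theorem wd_nil (x y : G) : wd x y [] = 1 := rfl
theorem wd_cons (x y : G) (b : Bool) (l : List Bool) : wd x y (b :: l) = (if b then y else x) * wd x y l := rfl

theorem wd_mem {x y : G} {H : Subgroup G} (hx : x ∈ H) (hy : y ∈ H) (l : List Bool) : wd x y l ∈ H := by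
  induction l with
  | nil => exact H.one_mem
  | cons b l ih =>
    rw [wd_cons]
    cases b
    · exact H.mul_mem hx ih
    · exact H.mul_mem hy ih

/-- computed action of a word -/
def ew {A : Type*} (fx fy : A → A) : List Bool → A → A
  | [], a => a
  | b :: l, a => (if b then fy else fx) (ew fx fy l a)

example := @ew.eq_def

theorem ew_nil {A : Type*} (fx fy : A → A) (a : A) : ew fx fy [] a = a := rfl
theorem ew_cons {A : Type*} (fx fy : A → A) (b : Bool) (l : List Bool) (a : A) :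
    ew fx fy (b :: l) a = (if b then fy else fx) (ew fx fy l a) := rfl

/-- a word from the bits of a number below its leading bit -/
def bits : ℕ → ℕ → List Bool
  | 0, _ => []
  | n + 1, w => if w ≤ 1 then [] else (w % 2 == 1) :: bits n (w / 2)

example := @bits.eq_def

/-- all sums of sublists -/
def sums : List ℕ → List ℕ
  | [] => [0]
  | a :: l => sums l ++ (sums l).map (a ^^^ ·)

example := @sums.eq_def

theorem sums_ind {P : ℕ → Prop} (h0 : P 0) (hx : ∀ a b, P a → P b → P (a ^^^ b)) :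
    ∀ l : List ℕ, (∀ a ∈ l, P a) → ∀ s ∈ sums l, P s
  | [], _, s, hs => by
    have h : s = 0 := List.mem_singleton.1 hs
    rw [h]; exact h0
  | a :: l, h, s, hs => by
    have ih := sums_ind h0 hx l (fun b hb => h b (List.mem_cons_of_mem _ hb))
    rcases List.mem_append.1 (show s ∈ sums l ++ (sums l).map (a ^^^ ·) from hs) with h1 | h1
    · exact ih s h1
    · obtain ⟨t, ht, rfl⟩ := List.mem_map.1 h1
      exact hx _ _ (h a List.mem_cons_self) (ih t ht)

/-- entry `a` of a table with eight bits per entry -/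
def lk (t a : ℕ) : ℕ := (t >>> (8 * a)) % 256

/-- entry `a` of a table with forty bits per entry -/
def lw (t a : ℕ) : ℕ := (t >>> (40 * a)) % 1099511627776

theorem lk_lt (t a : ℕ) : lk t a < 256 := Nat.mod_lt _ (by norm_num)

/-- bounded check -/
def al (p : ℕ → Bool) : Bool := (List.range 256).all p

theorem al_iff {p : ℕ → Bool} (h : al p = true) {a : ℕ} (ha : a < 256) : p a = true :=
  List.all_eq_true.1 h a (List.mem_range.2 ha)

end words

variable {V : Type} [AddCommGroup V] [Module (ZMod 2) V] {Q : QuadraticForm (ZMod 2) V} {dec : ℕ → V} {qn : ℕ → Bool}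

/-- bit to scalar -/
def cc (b : Bool) : ZMod 2 := if b then 1 else 0

theorem cc_xor (a b : Bool) : cc (a ^^ b) = cc a + cc b := by cases a <;> cases b <;> decide
theorem cc_and (a b : Bool) : cc (a && b) = cc a * cc b := by cases a <;> cases b <;> decide
theorem cc_zero {a : Bool} (h : cc a = 0) : a = false := by
  cases a
  · rfl
  · exact absurd h (by decide)

/-- codes for the vectors and the form -/
structure Cod (Q : QuadraticForm (ZMod 2) V) (dec : ℕ → V) (qn : ℕ → Bool) : Prop where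
  xor : ∀ a b, dec (a ^^^ b) = dec a + dec b
  surj : ∀ v, ∃ a < 256, dec a = v
  q : ∀ n, Q (dec n) = cc (qn n)

theorem add_self (v : V) : v + v = 0 := by
  rw [← two_smul (ZMod 2) v, show (2 : ZMod 2) = 0 from rfl, zero_smul]

theorem sub_eq (u v : V) : u - v = u + v := by
  rw [sub_eq_add_neg, neg_eq_of_add_eq_zero_left (add_self v)]

theorem Cod.zero (h : Cod Q dec qn) : dec 0 = 0 := by
  have h1 := h.xor 0 0
  rw [Nat.xor_self, add_self] at h1
  exact h1

/-- the polar form on codes -/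
def bn (qn : ℕ → Bool) (m n : ℕ) : Bool := qn (m ^^^ n) ^^ qn m ^^ qn n

theorem Cod.b (h : Cod Q dec qn) (m n : ℕ) : polar Q (dec m) (dec n) = cc (bn qn m n) := by
  rw [polar, ← h.xor, h.q, h.q, h.q, bn, cc_xor, cc_xor, sub_eq, sub_eq]

/-- one Siegel transformation on codes -/
def xn (qn : ℕ → Bool) (u w v : ℕ) : ℕ :=
  v ^^^ ((if bn qn u v then w else 0) ^^^ (if bn qn w v then u else 0)) ^^^ (if qn w && bn qn u v then u else 0)

/-- validity of a pair -/
def ok (qn : ℕ → Bool) (p : ℕ × ℕ) : Bool := !qn p.1 && !bn qn p.1 p.2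

theorem Cod.ok_iff (h : Cod Q dec qn) {p : ℕ × ℕ} (hp : ok qn p = true) :
    Q (dec p.1) = 0 ∧ polar Q (dec p.1) (dec p.2) = 0 := by
  simp only [ok, Bool.and_eq_true, Bool.not_eq_true'] at hp
  rw [h.q, h.b, hp.1, hp.2]
  exact ⟨rfl, rfl⟩

theorem Cod.ite (h : Cod Q dec qn) (b : Bool) (w : ℕ) : dec (if b then w else 0) = cc b • dec w := by
  cases b
  · simp [cc, h.zero]
  · simp [cc]

theorem Cod.sie (h : Cod Q dec qn) {u w : ℕ} (h1 : Q (dec u) = 0) (h2 : polar Q (dec u) (dec w) = 0) (v : ℕ) :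
    siegel Q (dec u) (dec w) h1 h2 (dec v) = dec (xn qn u w v) := by
  rw [siegel_apply, xn, h.xor, h.xor, h.xor, h.ite, h.ite, h.ite, h.b, h.b, h.q, cc_and, sub_eq, sub_eq]
  abel

open Classical in
/-- the Siegel transformation of a pair of vectors -/
noncomputable def sg (Q : QuadraticForm (ZMod 2) V) (u w : V) : E Q :=
  if h : Q u = 0 ∧ polar Q u w = 0 then ⟨siegel Q u w h.1 h.2, siegel_mem_E _ _⟩ else 1

theorem sg_eq {u w : V} (h1 : Q u = 0) (h2 : polar Q u w = 0) : sg Q u w = ⟨siegel Q u w h1 h2, siegel_mem_E _ _⟩ :=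
  dif_pos ⟨h1, h2⟩

/-- words in the Siegel transformations -/
noncomputable def word (Q : QuadraticForm (ZMod 2) V) (dec : ℕ → V) : List (ℕ × ℕ) → E Q
  | [] => 1
  | p :: l => sg Q (dec p.1) (dec p.2) * word Q dec l

example := @word.eq_def

/-- their computed action -/
def ev (qn : ℕ → Bool) : List (ℕ × ℕ) → ℕ → ℕ
  | [], v => v
  | p :: l, v => xn qn p.1 p.2 (ev qn l v)

example := @ev.eq_def

theorem Cod.word_dec (h : Cod Q dec qn) : ∀ {l : List (ℕ × ℕ)}, l.all (ok qn) = true → ∀ v : ℕ,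
    ((word Q dec l : E Q) : V ≃ₗ[ZMod 2] V) (dec v) = dec (ev qn l v)
  | [], _, _ => rfl
  | p :: l, hl, v => by
    rw [List.all_cons, Bool.and_eq_true] at hl
    obtain ⟨h1, h2⟩ := h.ok_iff hl.1
    show ((sg Q (dec p.1) (dec p.2) : E Q) : V ≃ₗ[ZMod 2] V) (((word Q dec l : E Q) : V ≃ₗ[ZMod 2] V) (dec v)) =
      dec (xn qn p.1 p.2 (ev qn l v))
    rw [h.word_dec hl.2, sg_eq h1 h2]
    exact h.sie h1 h2 _

/-- `g` acts on the codes as `f` -/
def Ac (dec : ℕ → V) (g : E Q) (f : ℕ → ℕ) : Prop :=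
  ∀ a < 256, f a < 256 ∧ (g : V ≃ₗ[ZMod 2] V) (dec a) = dec (f a)

theorem Ac.one : Ac dec (1 : E Q) id := fun _ ha => ⟨ha, rfl⟩

theorem Ac.mul {g g' : E Q} {f f' : ℕ → ℕ} (h : Ac dec g f) (h' : Ac dec g' f') : Ac dec (g * g') (fun a => f (f' a)) := by
  intro a ha
  obtain ⟨h1, h2⟩ := h' a ha
  obtain ⟨h3, h4⟩ := h _ h1
  refine ⟨h3, ?_⟩
  show (g : V ≃ₗ[ZMod 2] V) ((g' : V ≃ₗ[ZMod 2] V) (dec a)) = _
  rw [h2, h4]

theorem Ac.wd {x y : E Q} {fx fy : ℕ → ℕ} (hx : Ac dec x fx) (hy : Ac dec y fy) :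
    ∀ l : List Bool, Ac dec (wd x y l) (ew fx fy l)
  | [] => Ac.one
  | false :: l => hx.mul (Ac.wd hx hy l)
  | true :: l => hy.mul (Ac.wd hx hy l)

theorem Ac.pow {g : E Q} {f : ℕ → ℕ} (h : Ac dec g f) : ∀ n : ℕ, Ac dec (g ^ n) f^[n]
  | 0 => by rw [pow_zero]; exact Ac.one
  | n + 1 => by rw [pow_succ, Function.iterate_succ]; exact (Ac.pow h n).mul h

/-- the check of a table -/
def tabChk (qn : ℕ → Bool) (l : List (ℕ × ℕ)) (t : ℕ) : Bool := l.all (ok qn) && al fun a => lk t a == ev qn l a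

theorem Cod.tab (h : Cod Q dec qn) {l : List (ℕ × ℕ)} {t : ℕ} (hc : tabChk qn l t = true) :
    Ac dec (word Q dec l) (lk t) := by
  rw [tabChk, Bool.and_eq_true] at hc
  intro a ha
  refine ⟨lk_lt _ _, ?_⟩
  rw [h.word_dec hc.1, beq_iff_eq.1 (al_iff hc.2 ha)]

theorem Cod.ext (h : Cod Q dec qn) {g g' : E Q} {f f' : ℕ → ℕ} (h1 : Ac dec g f) (h2 : Ac dec g' f')
    (e : al (fun a => f a == f' a) = true) : g = g' := by
  apply Subtype.ext
  apply LinearEquiv.ext
  intro v
  obtain ⟨a, ha, rfl⟩ := h.surj v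
  rw [(h1 a ha).2, (h2 a ha).2, beq_iff_eq.1 (al_iff e ha)]

theorem Cod.pow_one (h : Cod Q dec qn) {g : E Q} {f : ℕ → ℕ} (hg : Ac dec g f) {n : ℕ}
    (e : al (fun a => f^[n] a == id a) = true) : g ^ n = 1 :=
  h.ext (hg.pow n) Ac.one e

/-- a relation -/
theorem Cod.rel (h : Cod Q dec qn) {x y : E Q} {fx fy : ℕ → ℕ} (hx : Ac dec x fx) (hy : Ac dec y fy) {l l' : List Bool}
    (e : al (fun a => ew fx fy l a == ew fx fy l' a) = true) : wd x y l = wd x y l' :=
  h.ext (hx.wd hy l) (hx.wd hy l') e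

theorem sg_conj (g : E Q) (u w : V) : g * sg Q u w * g⁻¹ = sg Q ((g : V ≃ₗ[ZMod 2] V) u) ((g : V ≃ₗ[ZMod 2] V) w) := by
  have hg : (g : V ≃ₗ[ZMod 2] V) ∈ O Q := E_le_O g.2
  by_cases h : Q u = 0 ∧ polar Q u w = 0
  · have h1 : Q ((g : V ≃ₗ[ZMod 2] V) u) = 0 := by rw [mem_O.1 hg, h.1]
    have h2 : polar Q ((g : V ≃ₗ[ZMod 2] V) u) ((g : V ≃ₗ[ZMod 2] V) w) = 0 := by rw [polar_map hg, h.2]
    rw [sg_eq h.1 h.2, sg_eq h1 h2]
    exact Subtype.ext (siegel_conj hg h.1 h.2 h1 h2)
  · have h' : ¬ (Q ((g : V ≃ₗ[ZMod 2] V) u) = 0 ∧ polar Q ((g : V ≃ₗ[ZMod 2] V) u) ((g : V ≃ₗ[ZMod 2] V) w) = 0) := by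
      rwa [mem_O.1 hg, polar_map hg]
    rw [sg, sg, dif_neg h, dif_neg h', mul_one, mul_inv_cancel]

theorem sg_mul {u w w' : V} (hu : Q u = 0) (hw : polar Q u w = 0) (hw' : polar Q u w' = 0) :
    sg Q u w * sg Q u w' = sg Q u (w + w') := by
  have h : polar Q u (w + w') = 0 := by rw [polar_add_right, hw, hw', add_zero]
  rw [sg_eq hu hw, sg_eq hu hw', sg_eq hu h]
  exact Subtype.ext (siegel_mul hu hw hw' h)

theorem sg_zero_right (u : V) : sg Q u 0 = 1 := by
  by_cases h : Q u = 0 ∧ polar Q u 0 = 0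
  · rw [sg_eq h.1 h.2]
    refine Subtype.ext (LinearEquiv.ext fun v => ?_)
    show siegel Q u 0 h.1 h.2 v = v
    rw [siegel_apply]
    simp
  · rw [sg, dif_neg h]

theorem sg_zero_left (w : V) : sg Q 0 w = 1 := by
  by_cases h : Q 0 = 0 ∧ polar Q 0 w = 0
  · rw [sg_eq h.1 h.2]
    refine Subtype.ext (LinearEquiv.ext fun v => ?_)
    show siegel Q 0 w h.1 h.2 v = v
    rw [siegel_apply]
    simp
  · rw [sg, dif_neg h]

theorem sg_self {u : V} (hu : Q u = 0) : sg Q u u = 1 := by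
  rw [sg_eq hu (polar_self_of_sing hu)]
  refine Subtype.ext (LinearEquiv.ext fun v => ?_)
  show siegel Q u u hu (polar_self_of_sing hu) v = v
  rw [siegel_apply, hu, zero_mul, zero_smul, sub_zero, add_sub_cancel_right]

theorem top_of {H : Subgroup (E Q)} {u : V} (hW : ∀ w, sg Q u w ∈ H)
    (hT : ∀ v, Q v = 0 → v ≠ 0 → ∃ g ∈ H, ((g : E Q) : V ≃ₗ[ZMod 2] V) u = v) : H = ⊤ := by
  have key : ∀ v w, sg Q v w ∈ H := by
    intro v w
    by_cases h : Q v = 0 ∧ polar Q v w = 0
    · by_cases hv : v = 0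
      · rw [hv, sg_zero_left]; exact H.one_mem
      · obtain ⟨g, hg, rfl⟩ := hT v h.1 hv
        obtain ⟨w, rfl⟩ := ((g : E Q) : V ≃ₗ[ZMod 2] V).surjective w
        rw [← sg_conj]
        exact H.mul_mem (H.mul_mem hg (hW w)) (H.inv_mem hg)
    · rw [sg, dif_neg h]; exact H.one_mem
  rw [eq_top_iff]
  rintro ⟨g, hg⟩ -
  induction hg using closure_induction with
  | mem x hx =>
    obtain ⟨v, w, h1, h2, rfl⟩ := hx
    have h3 := key v w
    rwa [sg_eq h1 h2] at h3
  | one => exact H.one_mem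
  | mul x y hx hy h1 h2 => exact H.mul_mem h1 h2
  | inv x hx h1 => exact H.inv_mem h1

/-- the certificate: `R` a word for the Siegel transformation of `(u, w)`, `L` words which fix `u`, `T` a table of
words which move `u` to the singular vectors -/
def topChk (qn : ℕ → Bool) (fx fy : ℕ → ℕ) (u w : ℕ) (R : List Bool) (L : List (List Bool)) (T : ℕ) : Bool :=
  decide (u < 256) && decide (w < 256) && ok qn (u, w) && (al fun a => ew fx fy R a == xn qn u w a) &&
    (L.all fun l => ew fx fy l u == u) &&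
    (al fun a => bn qn u a || (sums (u :: L.map fun l => ew fx fy l w)).contains a) &&
    (al fun a => qn a || a == 0 || ew fx fy (bits 40 (lw T a)) u == a)

theorem Cod.top_of_chk (h : Cod Q dec qn) {x y : E Q} {fx fy : ℕ → ℕ} (hx : Ac dec x fx) (hy : Ac dec y fy)
    {u w : ℕ} {R : List Bool} {L : List (List Bool)} {T : ℕ} (hc : topChk qn fx fy u w R L T = true) :
    closure ({x, y} : Set (E Q)) = ⊤ := by
  simp only [topChk, Bool.and_eq_true, decide_eq_true_eq] at hc
  obtain ⟨⟨⟨⟨⟨⟨hu, hw⟩, hok⟩, hR⟩, hL⟩, hS⟩, hT⟩ := hc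
  obtain ⟨h1, h2⟩ := h.ok_iff hok
  set H := closure ({x, y} : Set (E Q)) with hH
  have mem : ∀ l, wd x y l ∈ H := wd_mem (subset_closure (by simp)) (subset_closure (by simp))
  have hr : sg Q (dec u) (dec w) ∈ H := by
    have e : wd x y R = sg Q (dec u) (dec w) := by
      apply Subtype.ext
      apply LinearEquiv.ext
      intro v
      obtain ⟨a, ha, rfl⟩ := h.surj v
      rw [(hx.wd hy R a ha).2, beq_iff_eq.1 (al_iff hR ha), sg_eq h1 h2]
      exact (h.sie h1 h2 a).symm
    rw [← e]; exact mem R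
  refine top_of (u := dec u) (fun v => ?_) (fun v hv h0 => ?_)
  · by_cases hv : Q (dec u) = 0 ∧ polar Q (dec u) v = 0
    · obtain ⟨a, ha, rfl⟩ := h.surj v
      have h3 := al_iff hS ha
      have h4 : bn qn u a = false := cc_zero ((h.b u a).symm.trans hv.2)
      rw [h4, Bool.false_or, List.contains_iff_mem] at h3
      refine (sums_ind (P := fun b => polar Q (dec u) (dec b) = 0 ∧ sg Q (dec u) (dec b) ∈ H) ?_ ?_ _ ?_ a h3).2
      · rw [h.zero, polar_zero_right, sg_zero_right]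
        exact ⟨rfl, H.one_mem⟩
      · intro a b ha hb
        rw [h.xor, polar_add_right, ha.1, hb.1, add_zero, ← sg_mul h1 ha.1 hb.1]
        exact ⟨rfl, H.mul_mem ha.2 hb.2⟩
      · intro b hb
        rcases List.mem_cons.1 hb with rfl | hb
        · rw [sg_self h1]
          exact ⟨polar_self_of_sing h1, H.one_mem⟩
        · obtain ⟨l, hl, rfl⟩ := List.mem_map.1 hb
          have e1 : ((wd x y l : E Q) : V ≃ₗ[ZMod 2] V) (dec u) = dec u := by
            rw [(hx.wd hy l u hu).2, beq_iff_eq.1 (List.all_eq_true.1 hL l hl)]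
          have e2 := (hx.wd hy l w hw).2
          have e3 := sg_conj (wd x y l) (dec u) (dec w)
          rw [e1, e2] at e3
          refine ⟨?_, ?_⟩
          · rw [← e2]
            conv_lhs => rw [← e1]
            rw [polar_map (E_le_O (wd x y l).2), h2]
          · rw [← e3]
            exact H.mul_mem (H.mul_mem (mem l) hr) (H.inv_mem (mem l))
    · rw [sg, dif_neg hv]; exact H.one_mem
  · obtain ⟨a, ha, rfl⟩ := h.surj v
    have h3 := al_iff hT ha
    have h4 : qn a = false := cc_zero ((h.q a).symm.trans hv)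
    have h5 : (a == 0) = false := by
      rw [beq_eq_false_iff_ne]
      rintro rfl
      exact h0 h.zero
    rw [h4, h5, Bool.false_or, Bool.false_or, beq_iff_eq] at h3
    refine ⟨_, mem (bits 40 (lw T a)), ?_⟩
    rw [(hx.wd hy _ u hu).2, h3]

end Cfsg.Agent.N2.Tg.Orth
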