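import Cfsg.Agent.N2.Tri.Orth
import Cfsg.Agent.OddCyclic.ClaimC.SzIso
import Cfsg.Agent.TypeD4Two.F8
import Cfsg.Agent.H902.Iso
import Cfsg.Agent.S0333

/-!
# N2 triples: `Sz(8)` is `(2, 4, 13)`-generated; elements of order `13` (helper38)
-/

set_option autoImplicit false

namespace Cfsg.Agent.N2.Tg.Sz8

open Subgroup Cfsg.Agent.N2.Tg.Orth Cfsg.Agent.LieExceptional.SuzukiBasic Cfsg.Agent.TypeD4Two Cfsg.Agent.TypeD4Two.F8
open scoped MatrixGroups

theorem hF : Fintype.card F8 = 2 ^ (2 * 1 + 1) := card_F8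

/-- the group -/
abbrev G : Type := ↥(Cfsg.Sz F8 1)

/-- decoding of the points of the ovoid -/
def dec (n : ℕ) : Projectivization F8 (Fin 4 → F8) :=
  if n < 64 then pt 1 (ofN n) (ofN (n / 8)) else suzukiPointInfinity F8

theorem dec_lt {n : ℕ} (h : n < 64) : dec n = pt 1 (ofN n) (ofN (n / 8)) := if_pos h
theorem dec_64 : dec 64 = suzukiPointInfinity F8 := if_neg (by norm_num)
theorem dec_0 : dec 0 = suzukiPointZero F8 := pt_zero_zero 1
theorem dec_1 : dec 1 = pt 1 (1 : F8) 0 := rfl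

/-- `g` acts on the codes as `f` -/
def Ac (g : G) (f : ℕ → ℕ) : Prop := ∀ a < 65, f a < 65 ∧ (g : SL(4, F8)) • dec a = dec (f a)

theorem Ac.one : Ac 1 id := fun _ ha => ⟨ha, one_smul _ _⟩

theorem Ac.mul {g g' : G} {f f' : ℕ → ℕ} (h : Ac g f) (h' : Ac g' f') : Ac (g * g') (fun a => f (f' a)) := by
  intro a ha
  obtain ⟨h1, h2⟩ := h' a ha
  obtain ⟨h3, h4⟩ := h _ h1
  exact ⟨h3, by rw [coe_mul, mul_smul, h2, h4]⟩

theorem Ac.wd {x y : G} {fx fy : ℕ → ℕ} (hx : Ac x fx) (hy : Ac y fy) : ∀ l : List Bool, Ac (wd x y l) (ew fx fy l)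
  | [] => Ac.one
  | false :: l => hx.mul (Ac.wd hx hy l)
  | true :: l => hy.mul (Ac.wd hx hy l)

theorem Ac.pow {g : G} {f : ℕ → ℕ} (h : Ac g f) : ∀ n : ℕ, Ac (g ^ n) f^[n]
  | 0 => by rw [pow_zero]; exact Ac.one
  | n + 1 => by rw [pow_succ, Function.iterate_succ]; exact (Ac.pow h n).mul h

theorem Ac.ext {g g' : G} {f f' : ℕ → ℕ} (h : Ac g f) (h' : Ac g' f') (e : f 64 = f' 64 ∧ f 0 = f' 0 ∧ f 1 = f' 1) :
    g = g' := by
  have key : ∀ a < 65, f a = f' a → ((g'⁻¹ * g : G) : SL(4, F8)) • dec a = dec a := by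
    intro a ha e
    rw [coe_mul, mul_smul, (h a ha).2, e, ← (h' a ha).2, coe_inv, inv_smul_smul]
  have h1 := key 64 (by norm_num) e.1
  have h2 := key 0 (by norm_num) e.2.1
  have h3 := key 1 (by norm_num) e.2.2
  rw [dec_64] at h1
  rw [dec_0] at h2
  rw [dec_1] at h3
  have h4 := eq_one_of_fix_three le_rfl hF (g'⁻¹ * g).2 (infinity_mem_ovoid 1) (zero_mem_ovoid 1) (pt_mem_ovoid 1 1 0)
    zero_ne_infinity.symm (pt_ne_infinity 1 1 0).symm
    (by rw [← pt_zero_zero 1, Ne, pt_eq_pt_iff]; exact fun h => zero_ne_one h.1) h1 h2 h3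
  exact (inv_mul_eq_one.1 (Subtype.ext h4)).symm

/-- the involution -/
def x : G := ⟨W F8, W_mem hF⟩
/-- the element of order four -/
def y : G := ⟨U 1 (ofN 2) 0, U_mem hF _ _⟩

def tx : ℕ := 0x361e2f2c1f2534051c3f0f390a3132043d13243c1d1a22030e213a2d0d2926023b3e2b37122a16070b190c112e1b140635272315173309011810383028200840
def ty : ℕ := 0x401d2c271631000b3a15242f1e390803320d3c370621101b2a05343f0e291813223d0c073611202b1a35040f3e192823122d1c172601303b0a25141f2e09383302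

theorem cx : ∀ n < 64, n ≠ 0 → lk tx n < 64 ∧ zc 1 (ofN n) (ofN (n / 8)) ≠ 0 ∧
    ofN (n / 8) / zc 1 (ofN n) (ofN (n / 8)) = ofN (lk tx n) ∧ ofN n / zc 1 (ofN n) (ofN (n / 8)) = ofN (lk tx n / 8) := by
  decide +kernel

theorem cy : ∀ n < 64, lk ty n < 64 ∧ ofN n + ofN 2 = ofN (lk ty n) ∧
    ofN (n / 8) + 0 + ofN 2 ^ 2 ^ (1 + 1) * ofN n = ofN (lk ty n / 8) := by
  decide +kernel

theorem hx : Ac x (lk tx) := by
  intro a ha
  by_cases h1 : a = 64
  · rw [h1, show lk tx 64 = 0 by decide +kernel, dec_64, dec_0]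
    exact ⟨by norm_num, W_smul_infinity⟩
  by_cases h0 : a = 0
  · rw [h0, show lk tx 0 = 64 by decide +kernel, dec_64, dec_0]
    exact ⟨by norm_num, W_smul_zero⟩
  have h2 : a < 64 := by omega
  obtain ⟨h3, h4, h5, h6⟩ := cx a h2 h0
  rw [dec_lt h2, dec_lt h3, ← h5, ← h6]
  exact ⟨by omega, W_smul_pt hF _ _ h4⟩

theorem hy : Ac y (lk ty) := by
  intro a ha
  by_cases h1 : a = 64
  · rw [h1, show lk ty 64 = 64 by decide +kernel, dec_64]
    exact ⟨by norm_num, U_smul_infinity _ _⟩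
  have h2 : a < 64 := by omega
  obtain ⟨h3, h5, h6⟩ := cy a h2
  rw [dec_lt h2, dec_lt h3, ← h5, ← h6]
  exact ⟨by omega, U_smul_pt hF _ _ _ _⟩

theorem dec_ne : ∀ n < 64, n ≠ 1 → ¬ (ofN n = 1 ∧ ofN (n / 8) = 0) := by decide +kernel

theorem ne_one {g : G} {f : ℕ → ℕ} (h : Ac g f) (h1 : f 1 < 64 ∧ f 1 ≠ 1) : g ≠ 1 := by
  rintro rfl
  have h2 := (h 1 (by norm_num)).2
  rw [coe_one, one_smul, dec_1, dec_lt h1.1, eq_comm, pt_eq_pt_iff] at h2
  exact dec_ne _ h1.1 h1.2 h2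

theorem ord : orderOf (x * y) = 13 := by
  have : Fact (Nat.Prime 13) := ⟨by norm_num⟩
  exact orderOf_eq_prime (((hx.mul hy).pow 13).ext Ac.one (by decide +kernel)) (ne_one (hx.mul hy) (by decide +kernel))

theorem pow_surj : ∀ e : F8, ∃ a : F8, a ^ (2 ^ (1 + 1) + 1) = e := by decide +kernel

/-- generation from the torus, one unipotent element and the involution -/
theorem le_of {M : Subgroup SL(4, F8)} (hH : ∀ l : F8ˣ, H 1 l ∈ M) {c d : F8} (hc : c ≠ 0) (hcd : U 1 c d ∈ M)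
    (hW : W F8 ∈ M) : Cfsg.Sz F8 1 ≤ M := by
  have hconj : ∀ (l : F8ˣ) (c d : F8), U 1 c d ∈ M → U 1 (l * c) ((l : F8) ^ (2 ^ (1 + 1) + 1) * d) ∈ M := by
    intro l c d h
    have h1 : U 1 (l * c) ((l : F8) ^ (2 ^ (1 + 1) + 1) * d) = H 1 l * U 1 c d * (H 1 l)⁻¹ := by
      rw [H_mul_U hF]; group
    rw [h1]
    exact M.mul_mem (M.mul_mem (hH l) h) (M.inv_mem (hH l))
  have h1 : ∀ a : F8, ∃ b : F8, U 1 a b ∈ M := by
    intro a
    by_cases ha0 : a = 0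
    · exact ⟨0, by rw [ha0, U_zero_zero]; exact M.one_mem⟩
    · have := hconj (Units.mk0 (a / c) (div_ne_zero ha0 hc)) c d hcd
      rw [Units.val_mk0, div_mul_cancel₀ a hc] at this
      exact ⟨_, this⟩
  have h2 : ∀ e : F8, U 1 0 e ∈ M := by
    intro e
    obtain ⟨a, rfl⟩ := pow_surj e
    obtain ⟨b, hb⟩ := h1 a
    have h3 := M.mul_mem hb hb
    rw [U_mul hF, LieExceptional.SuzukiBasic.add_self hF, LieExceptional.SuzukiBasic.add_self hF, zero_add,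
      ← pow_succ] at h3
    exact h3
  have h3 : ∀ a b : F8, U 1 a b ∈ M := by
    intro a b
    obtain ⟨b', hb'⟩ := h1 a
    have h4 := M.mul_mem hb' (h2 (b - b'))
    rw [U_mul hF, add_zero, mul_zero, add_zero, add_sub_cancel] at h4
    exact h4
  intro g hg
  rcases bruhat le_rfl hF hg with ⟨a, b, l, rfl⟩ | ⟨a, b, l, c, d, rfl⟩
  · exact M.mul_mem (h3 a b) (hH l)
  · exact M.mul_mem (M.mul_mem (M.mul_mem (h3 a b) hW) (hH l)) (h3 c d)

theorem top : closure ({x, y} : Set G) = ⊤ := by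
  set K := closure ({x, y} : Set G) with hK
  have mx : x ∈ K := subset_closure (by simp)
  have my : y ∈ K := subset_closure (by simp)
  have ht := hx.wd hy (bits 40 60247)
  have mt := wd_mem mx my (bits 40 60247)
  have nt := ne_one ht (by decide +kernel)
  have e1 := (ht 64 (by norm_num)).2
  have e2 := (ht 0 (by norm_num)).2
  rw [show ew (lk tx) (lk ty) (bits 40 60247) 64 = 64 by decide +kernel, dec_64] at e1
  rw [show ew (lk tx) (lk ty) (bits 40 60247) 0 = 0 by decide +kernel, dec_0] at e2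
  generalize wd x y (bits 40 60247) = t at mt nt e1 e2
  obtain ⟨k, hk⟩ := eq_H_of_fix_two le_rfl hF t.2 e1 e2
  have k1 : k ≠ 1 := by
    rintro rfl
    exact nt (Subtype.ext (hk.trans (H_one 1)))
  have : Fact (Nat.Prime 7) := ⟨by norm_num⟩
  have c7 : Nat.card F8ˣ = 7 := by rw [Nat.card_units, Nat.card_eq_fintype_card, card_F8]
  have hH : ∀ l : F8ˣ, H 1 l ∈ K.map (Cfsg.Sz F8 1).subtype := by
    let f : F8ˣ →* SL(4, F8) := ⟨⟨H 1, H_one 1⟩, fun x y => (H_mul 1 x y).symm⟩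
    intro l
    obtain ⟨n, rfl⟩ := mem_zpowers_iff.1 (mem_zpowers_of_prime_card c7 k1 (g' := l))
    have : H 1 (k ^ n) = H 1 k ^ n := map_zpow f k n
    rw [this]
    exact Subgroup.zpow_mem _ (mem_map.2 ⟨t, mt, hk⟩) n
  have h := le_of hH (c := ofN 2) (d := 0) (by decide +kernel) ⟨y, my, rfl⟩ ⟨x, mx, rfl⟩
  rw [eq_top_iff]
  intro g _
  obtain ⟨g', h1, h2⟩ := h g.2
  rwa [← show g' = g from Subtype.ext h2]

theorem tri : Tri G 2 4 13 :=
  ⟨x, y, (hx.pow 2).ext Ac.one (by decide +kernel), (hy.pow 4).ext Ac.one (by decide +kernel), ord, top⟩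

theorem conj : Cj G 13 5 := by
  refine ⟨_, ord, isConj_iff.2 ⟨wd x y (bits 40 177837), ?_⟩⟩
  have ht := hx.wd hy (bits 40 177837)
  rw [(ht.mul (hx.mul hy)).ext (((hx.mul hy).pow 5).mul ht) (by decide +kernel), mul_inv_cancel_right]

theorem sc : SC G 13 := by
  obtain ⟨U, -, h1, h2, -⟩ := S0333.result (F := F8) le_rfl hF 13 (Or.inl (by norm_num))
  have : Fact (Nat.Prime 13) := ⟨by norm_num⟩
  have : Finite U := Nat.finite_of_card_ne_zero (by rw [h1]; norm_num)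
  have : Nontrivial U := Finite.one_lt_card_iff_nontrivial.1 (by rw [h1]; norm_num)
  obtain ⟨u, hu⟩ := exists_ne (1 : U)
  have hu' : (u : G) ≠ 1 := fun h => hu (Subtype.ext h)
  refine ⟨u, ?_, ?_⟩
  · refine orderOf_eq_prime ?_ hu'
    rw [← coe_pow, ← h1, pow_card_eq_one', coe_one]
  · rw [h2 u u.2 hu']
    intro v hv
    obtain ⟨n, hn⟩ := mem_zpowers_iff.1 (mem_zpowers_of_prime_card h1 hu (g' := ⟨v, hv⟩))
    exact ⟨n, congrArg Subtype.val hn⟩

theorem real : OrdDiv.Real (.sz 8) G :=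
  ⟨F8, inferInstance, inferInstance, 1, le_rfl, card_F8, by norm_num, OddCyclic.ClaimC.SzIso.iso le_rfl hF⟩

/-- **`Sz(8)`** -/
theorem dat_sz8 {N : Type} [Group N] (h : OrdDiv.Real (.sz 8) N) : Tri N 2 4 13 ∧ Cj N 13 5 ∧ SC N 13 := by
  obtain ⟨e⟩ := H902.Iso.real_unique _ real h
  exact ⟨tri.congr e, conj.congr e, sc.congr e⟩

end Cfsg.Agent.N2.Tg.Sz8
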