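import Cfsg.Agent.N2.Tri.Defs
import Cfsg.Agent.OrdDiv.Main
import Cfsg.Agent.MK.U43.GT

/-!
# N2 (S3519): triples of `U₄(3)` (helper10)
-/

set_option autoImplicit false

namespace Cfsg.Agent.N2.Tg.U43

open Cfsg Subgroup Cfsg.Agent.TwoF.XL.U43 Cfsg.Agent.MK.U43.GT

theorem ord7 {l : List ℕ} (h : eqB (pw l 7) [] = true) (h' : eqB l [] = false) : orderOf (Wm l) = 7 := by
  have : Fact (Nat.Prime 7) := ⟨by norm_num⟩
  exact orderOf_eq_prime ((Wm_pw l 7).symm.trans (Wm_eq h)) (Wm_ne h')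

theorem Wm_mem {H : Subgroup M} (s : List (List ℕ)) (h : ∀ l ∈ s, Wm l ∈ H) :
    ∀ u : List ℕ, Wm (u.flatMap fun i => s.getD i []) ∈ H
  | [] => H.one_mem
  | i :: u => by
    rw [List.flatMap_cons, Wm_append]
    refine H.mul_mem ?_ (Wm_mem s h u)
    by_cases k : i < s.length
    · rw [List.getD_eq_getElem _ _ k]
      exact h _ (List.getElem_mem k)
    · rw [List.getD_eq_default _ _ (by omega)]
      exact H.one_mem

theorem tri_of (x y : List ℕ) (a b : ℕ) (u v : List ℕ) (h1 : eqB (pw x a) [] = true) (h2 : eqB (pw y b) [] = true)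
    (h3 : eqB (pw (x ++ y) 7) [] = true) (h4 : eqB (x ++ y) [] = false)
    (h5 : eqB (u.flatMap fun i => [x, y, pw y (b - 1)].getD i []) [0] = true)
    (h6 : eqB (v.flatMap fun i => [x, y, pw y (b - 1)].getD i []) [2] = true) : Tri M a b 7 := by
  have k : ∀ l ∈ [x, y, pw y (b - 1)], Wm l ∈ closure {Wm x, Wm y} := by
    simp only [List.mem_cons, List.not_mem_nil, or_false, forall_eq_or_imp, forall_eq, Wm_pw]
    exact ⟨subset_closure (by simp), subset_closure (by simp), pow_mem (subset_closure (by simp)) _⟩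
  exact ⟨Wm x, Wm y, (Wm_pw _ _).symm.trans (Wm_eq h1), (Wm_pw _ _).symm.trans (Wm_eq h2), Wm_append x y ▸ ord7 h3 h4,
    eq_top_of_gens (Wm_eq h5 ▸ Wm_mem _ k u) (Wm_eq h6 ▸ Wm_mem _ k v)⟩

theorem t257 : Tri M 2 5 7 := tri_of [2] [2, 0, 0, 2, 1, 2, 0, 0] 2 5
  [1, 0, 2, 2, 0, 1, 0, 1, 1, 0, 2, 2, 0, 1, 1, 0, 2, 2, 0, 1] [0] (by decide +kernel) (by decide +kernel) (by decide +kernel)
  (by decide +kernel) (by decide +kernel) (by decide +kernel)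

theorem t267 : Tri M 2 6 7 := tri_of [2] [2, 0, 2, 0] 2 6
  [2, 0, 1, 0, 1, 0, 1, 1, 0, 2, 0, 1, 1, 0, 1, 1, 1, 0, 1, 0, 1, 1, 0, 1, 0, 1, 0] [0] (by decide +kernel) (by decide +kernel)
  (by decide +kernel) (by decide +kernel) (by decide +kernel) (by decide +kernel)

theorem cj : Cj M 7 2 := by
  refine ⟨Wm [0], ord7 (by decide +kernel) (by decide +kernel),
    isConj_iff.2 ⟨Wm [2, 1, 1, 2, 0, 2, 1, 1, 2, 1, 2, 0, 0, 0, 2, 0, 2], ?_⟩⟩
  rw [mul_inv_eq_iff_eq_mul, ← Wm_pw, ← Wm_append, ← Wm_append]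
  exact Wm_eq (by decide +kernel)

theorem sc : SC M 7 := by
  have h : orderOf (rep 12) = 7 := ord_rep (by norm_num)
  refine ⟨rep 12, h, (eq_of_le_of_card_ge (zpowers_le.2 (mem_centralizer_singleton_iff.2 rfl)) ?_).ge⟩
  rw [Nat.card_zpowers, h]
  exact cent_le 12

/-- **`U₄(3)`** -/
theorem dat_u43 {N : Type} [Group N] (h : OrdDiv.Real (.psu 4 3) N) : Tri N 2 5 7 ∧ Tri N 2 6 7 ∧ Cj N 7 2 ∧ SC N 7 := by
  obtain ⟨F, _, _, hF, ⟨e⟩⟩ := h
  obtain ⟨e'⟩ := iso hF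
  exact ⟨t257.congr (e.trans e').symm, t267.congr (e.trans e').symm, cj.congr (e.trans e').symm, sc.congr (e.trans e').symm⟩

end Cfsg.Agent.N2.Tg.U43
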